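import Mathlib
import Cfsg.Agent.Lib.Helper64.AutStmt

set_option autoImplicit false

namespace Cfsg.Agent.Lib.Helper11.AutBADCONJ

open Cfsg
open Cfsg.Agent.Lib.Helper64

universe u

theorem mem_cj {Γ : Type u} [Group Γ] (x : Γ) (R : Subgroup Γ) (h : Γ) :
    h ∈ AutStmt.cj x R ↔ x⁻¹ * h * x ∈ R := by
  unfold AutStmt.cj
  constructor
  · rintro ⟨r, hr, rfl⟩
    have e : x⁻¹ * ((MulAut.conj x).toMonoidHom r) * x = r := by
      show x⁻¹ * (x * r * x⁻¹) * x = r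
      group
    rw [e]; exact hr
  · intro hh
    refine ⟨x⁻¹ * h * x, hh, ?_⟩
    show x * (x⁻¹ * h * x) * x⁻¹ = h
    group

theorem main : AutStmt.BadConj.{u} := by
  intro q Γ _ X R x hx hbad
  obtain ⟨y, hyX, hyN, ⟨k, hk⟩, hyC⟩ := hbad
  refine ⟨x * y * x⁻¹, X.mul_mem (X.mul_mem hx hyX) (X.inv_mem hx), ?_, ⟨k, ?_⟩, ?_⟩
  · rw [Subgroup.mem_normalizer_iff]
    intro h
    rw [mem_cj, mem_cj]
    have e : x⁻¹ * (x * y * x⁻¹ * h * (x * y * x⁻¹)⁻¹) * x = y * (x⁻¹ * h * x) * y⁻¹ := by group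
    rw [e]
    exact Subgroup.mem_normalizer_iff.mp hyN (x⁻¹ * h * x)
  · rw [conj_pow, hk]; simp
  · intro hc
    apply hyC
    rw [Subgroup.mem_centralizer_iff] at hc ⊢
    intro r hr
    have hm : x * r * x⁻¹ ∈ AutStmt.cj x R := by
      rw [mem_cj]
      have e : x⁻¹ * (x * r * x⁻¹) * x = r := by group
      rw [e]; exact hr
    have h1 := hc (x * r * x⁻¹) hm
    have e1 : r * y = x⁻¹ * (x * r * x⁻¹ * (x * y * x⁻¹)) * x := by group
    have e2 : y * r = x⁻¹ * (x * y * x⁻¹ * (x * r * x⁻¹)) * x := by group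
    rw [e1, e2, h1]

end Cfsg.Agent.Lib.Helper11.AutBADCONJ
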