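import Mathlib
import Cfsg.Agent.Lib.Helper64.AutStmt

set_option autoImplicit false

namespace Cfsg.Agent.Lib.Helper11.AutCHARZ

open Cfsg
open Cfsg.Agent.Lib.Helper64

universe u

theorem conj_mem_Z1 (p : ℕ) {Γ : Type u} [Group Γ] (T : Subgroup Γ) (n : Γ)
    (hn : n ∈ Subgroup.normalizer (T : Set Γ)) (x : Γ) (hx : x ∈ AutStmt.Z1 p T) :
    n * x * n⁻¹ ∈ AutStmt.Z1 p T := by
  have key : AutStmt.Z1 p T ≤ (AutStmt.Z1 p T).comap (MulAut.conj n).toMonoidHom := by
    unfold AutStmt.Z1 omegaOne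
    rw [Subgroup.closure_le]
    rintro y ⟨hy, hyp⟩
    show n * y * n⁻¹ ∈ Subgroup.closure _
    apply Subgroup.subset_closure
    refine ⟨?_, ?_⟩
    · rw [Subgroup.mem_inf] at hy ⊢
      refine ⟨(Subgroup.mem_normalizer_iff.mp hn y).mp hy.1, ?_⟩
      rw [Subgroup.mem_centralizer_iff]
      intro t ht
      have ht' : n⁻¹ * t * n ∈ T := by
        have := (Subgroup.mem_normalizer_iff.mp (Subgroup.inv_mem _ hn) t).mp ht
        simpa using this
      have hc := (Subgroup.mem_centralizer_iff.mp hy.2) (n⁻¹ * t * n) ht'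
      have e1 : t * (n * y * n⁻¹) = n * ((n⁻¹ * t * n) * y) * n⁻¹ := by group
      have e2 : n * y * n⁻¹ * t = n * (y * (n⁻¹ * t * n)) * n⁻¹ := by group
      rw [e1, e2, hc]
    · rw [conj_pow, hyp]; simp
  exact key hx

theorem main : AutStmt.CharZ.{u} := by
  intro p Γ _ T n hn
  rw [Subgroup.mem_normalizer_iff]
  intro x
  constructor
  · exact conj_mem_Z1 p T n hn x
  · intro hx
    have := conj_mem_Z1 p T n⁻¹ (Subgroup.inv_mem _ hn) _ hx
    have e : n⁻¹ * (n * x * n⁻¹) * n⁻¹⁻¹ = x := by group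
    rwa [e] at this

end Cfsg.Agent.Lib.Helper11.AutCHARZ
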