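import Mathlib
import Cfsg.Agent.Lib.Helper64.AutStmt

set_option autoImplicit false

namespace Cfsg.Agent.Lib.Helper11.AutMAXC

open Cfsg
open Cfsg.Agent.Lib.Helper64

universe u

theorem main : AutStmt.MaxC.{u} := by
  intro Γ _ _ T P hex
  classical
  have hfin : Set.Finite {R : Subgroup Γ | R ≤ T ∧ P R} := Set.toFinite _
  obtain ⟨R0, hR0⟩ := hex
  obtain ⟨H₀, hH₀, hmax⟩ := Set.exists_max_image {R : Subgroup Γ | R ≤ T ∧ P R}
    (fun R : Subgroup Γ => toLex (Nat.card ↥(T ⊓ Subgroup.normalizer (R : Set Γ)), Nat.card R))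
    hfin ⟨R0, hR0⟩
  refine ⟨H₀, hH₀.1, hH₀.2, ?_⟩
  intro R hRT hPR
  have h := hmax R ⟨hRT, hPR⟩
  rw [Prod.Lex.toLex_le_toLex] at h
  exact h

end Cfsg.Agent.Lib.Helper11.AutMAXC
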