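import Mathlib
import Cfsg.Agent.Lib.Helper64.AutStmt

set_option autoImplicit false

namespace Cfsg.Agent.Lib.Helper11.AutNGROW

open Cfsg
open Cfsg.Agent.Lib.Helper64

universe u

theorem main : AutStmt.NGrow.{u} := by
  intro p _ Γ _ _ S T hS hTS hne
  have hnil : Group.IsNilpotent ↥S := hS.isNilpotent
  have hnc : NormalizerCondition ↥S := normalizerCondition_of_isNilpotent
  have hlt : T.subgroupOf S < ⊤ := by
    rw [lt_top_iff_ne_top]
    intro h
    rw [Subgroup.subgroupOf_eq_top] at h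
    exact hne (le_antisymm hTS h)
  have h2 := hnc (T.subgroupOf S) hlt
  obtain ⟨n, hnN, hnT⟩ := SetLike.exists_of_lt h2
  refine ⟨(n : Γ), n.2, ?_, ?_⟩
  · rw [Subgroup.mem_normalizer_iff]
    intro h
    have hN := Subgroup.mem_normalizer_iff.mp hnN
    constructor
    · intro hh
      have := (hN ⟨h, hTS hh⟩).mp (by rw [Subgroup.mem_subgroupOf]; exact hh)
      rw [Subgroup.mem_subgroupOf] at this
      simpa using this
    · intro hh
      have hhS : h ∈ S := by
        have h1 : (n : Γ)⁻¹ * ((n : Γ) * h * (n : Γ)⁻¹) * (n : Γ) ∈ S :=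
          S.mul_mem (S.mul_mem (S.inv_mem n.2) (hTS hh)) n.2
        have e : (n : Γ)⁻¹ * ((n : Γ) * h * (n : Γ)⁻¹) * (n : Γ) = h := by group
        rwa [e] at h1
      have := (hN ⟨h, hhS⟩).mpr (by rw [Subgroup.mem_subgroupOf]; simpa using hh)
      rw [Subgroup.mem_subgroupOf] at this
      exact this
  · intro h
    apply hnT
    rw [Subgroup.mem_subgroupOf]; exact h

end Cfsg.Agent.Lib.Helper11.AutNGROW
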