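import Mathlib
import Cfsg.Agent.Lib.Helper64.AutStmt

set_option autoImplicit false

namespace Cfsg.Agent.Lib.Helper11.AutSYLA

open Cfsg
open Cfsg.Agent.Lib.Helper64

universe u

theorem pg : AutStmt.SylPG.{u} := by
  intro p _ Γ _ _ X T hT
  exact IsPGroup.of_card hT.2

theorem max : AutStmt.SylMax.{u} := by
  intro p _ Γ _ _ X T hT P hPX hP hTP
  have hp : p.Prime := Fact.out
  obtain ⟨m, hm⟩ := IsPGroup.iff_card.mp hP
  have hdvd : Nat.card P ∣ Nat.card X := Subgroup.card_dvd_of_le hPX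
  rw [hm] at hdvd
  have hX0 : Nat.card X ≠ 0 := Nat.card_pos.ne'
  have hle : m ≤ (Nat.card X).factorization p :=
    (hp.pow_dvd_iff_le_factorization hX0).mp hdvd
  have hcard : Nat.card P ≤ Nat.card T := by
    rw [hm, hT.2]
    exact Nat.pow_le_pow_right hp.pos hle
  exact (Subgroup.eq_of_le_of_card_ge hTP hcard).symm

theorem sub : AutStmt.SylSub.{u} := by
  intro p _ Γ _ _ X T hT N hTN hNX
  have hp : p.Prime := Fact.out
  refine ⟨hTN, ?_⟩
  rw [hT.2]
  congr 1
  have hX0 : Nat.card X ≠ 0 := Nat.card_pos.ne'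
  have hN0 : Nat.card N ≠ 0 := Nat.card_pos.ne'
  apply le_antisymm
  · have hdvd : Nat.card T ∣ Nat.card N := Subgroup.card_dvd_of_le hTN
    rw [hT.2] at hdvd
    exact (hp.pow_dvd_iff_le_factorization hN0).mp hdvd
  · have hdvd : Nat.card N ∣ Nat.card X := Subgroup.card_dvd_of_le hNX
    exact (Nat.factorization_le_iff_dvd hN0 hX0).mpr hdvd p

end Cfsg.Agent.Lib.Helper11.AutSYLA
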