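import Mathlib
import Cfsg.Agent.Lib.Helper64.AutStmt

set_option autoImplicit false

namespace Cfsg.Agent.Lib.Helper11.AutSYLB

open Cfsg
open Cfsg.Agent.Lib.Helper64

universe u

theorem conj : AutStmt.SylConj.{u} := by
  intro p _ Γ _ _ X T hT P hPX hP
  have hp : p.Prime := Fact.out
  have hcardT : Nat.card (T.subgroupOf X) = p ^ (Nat.card ↥X).factorization p := by
    rw [Nat.card_congr (Subgroup.subgroupOfEquivOfLe hT.1).toEquiv]
    exact hT.2
  let ST : Sylow p ↥X := Sylow.ofCard (T.subgroupOf X) hcardT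
  have hP' : IsPGroup p (P.subgroupOf X) :=
    hP.of_equiv (Subgroup.subgroupOfEquivOfLe hPX).symm
  obtain ⟨Q, hQ⟩ := hP'.exists_le_sylow
  obtain ⟨g, hg⟩ := MulAction.exists_smul_eq ↥X Q ST
  refine ⟨(g : Γ), g.2, ?_⟩
  intro y hy
  have hyQ : (⟨y, hPX hy⟩ : ↥X) ∈ Q := hQ (by rw [Subgroup.mem_subgroupOf]; exact hy)
  have h0 : ((g • Q : Sylow p ↥X) : Subgroup ↥X) =
      (Q : Subgroup ↥X).map (MulAut.conj g).toMonoidHom := rfl
  have h1 : g * ⟨y, hPX hy⟩ * g⁻¹ ∈ ((g • Q : Sylow p ↥X) : Subgroup ↥X) := by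
    rw [h0]
    exact ⟨⟨y, hPX hy⟩, hyQ, rfl⟩
  rw [hg] at h1
  have h2 : g * ⟨y, hPX hy⟩ * g⁻¹ ∈ T.subgroupOf X := h1
  rw [Subgroup.mem_subgroupOf] at h2
  simpa using h2

theorem ofMax : AutStmt.SylOfMax.{u} := by
  intro p _ Γ _ _ N T hTN hT hmax
  have hp : p.Prime := Fact.out
  have hT' : IsPGroup p (T.subgroupOf N) :=
    hT.of_equiv (Subgroup.subgroupOfEquivOfLe hTN).symm
  obtain ⟨Q, hQ⟩ := hT'.exists_le_sylow
  have hQp : IsPGroup p ((Q : Subgroup ↥N).map N.subtype) :=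
    Q.2.of_equiv ((Q : Subgroup ↥N).equivMapOfInjective N.subtype N.subtype_injective)
  have hle : T ≤ (Q : Subgroup ↥N).map N.subtype := by
    intro t ht
    exact ⟨⟨t, hTN ht⟩, hQ (by rw [Subgroup.mem_subgroupOf]; exact ht), rfl⟩
  have hQN : (Q : Subgroup ↥N).map N.subtype ≤ N := by
    rintro _ ⟨y, -, rfl⟩
    exact y.2
  have heq := hmax _ hQN hQp hle
  refine ⟨hTN, ?_⟩
  rw [← heq, Nat.card_congr
    ((Q : Subgroup ↥N).equivMapOfInjective N.subtype N.subtype_injective).toEquiv.symm]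
  exact Sylow.card_eq_multiplicity Q

end Cfsg.Agent.Lib.Helper11.AutSYLB
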