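import Mathlib
import Cfsg.Agent.Lib.Helper64.AutStmt
import Cfsg.Agent.S0605

set_option autoImplicit false

namespace Cfsg.Agent.Lib.Helper11.AutZLEJ

open Cfsg
open Cfsg.Agent.Lib.Helper64

universe u

theorem main : AutStmt.ZLeJ.{u} := by
  intro p _ Γ _ _ T _hT
  have hp : p.Prime := Fact.out
  unfold AutStmt.Z1 omegaOne
  rw [Subgroup.closure_le]
  rintro x ⟨hx, hxp⟩
  rw [Subgroup.mem_inf] at hx
  by_cases h1 : x = 1
  · rw [h1]; exact Subgroup.one_mem _
  · have ho : orderOf (⟨x, hx.1⟩ : ↥T) = p := by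
      apply orderOf_eq_prime
      · apply Subtype.ext
        simpa using hxp
      · intro h
        apply h1
        exact congrArg Subtype.val h
    have hc : (⟨x, hx.1⟩ : ↥T) ∈ Subgroup.centralizer (thompsonSubgroup p ↥T : Set ↥T) := by
      rw [Subgroup.mem_centralizer_iff]
      intro y _
      apply Subtype.ext
      exact (Subgroup.mem_centralizer_iff.mp hx.2) y y.2
    have := Cfsg.Agent.S0605.result (⟨x, hx.1⟩ : ↥T) hc ho
    exact ⟨⟨x, hx.1⟩, this, rfl⟩

end Cfsg.Agent.Lib.Helper11.AutZLEJ
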