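import Mathlib
import Cfsg.Agent.Lib.Helper64.AutStmt

set_option autoImplicit false

namespace Cfsg.Agent.Lib.Helper11.AutZNE

open Cfsg
open Cfsg.Agent.Lib.Helper64

universe u

theorem main : AutStmt.ZNe.{u} := by
  intro p _ Γ _ _ T hT hne
  have hp : p.Prime := Fact.out
  have : Nontrivial ↥T := (Subgroup.nontrivial_iff_ne_bot T).mpr hne
  have hc : Nontrivial (Subgroup.center ↥T) := hT.center_nontrivial
  have hZp : IsPGroup p (Subgroup.center ↥T) := hT.to_subgroup _
  obtain ⟨n, hn⟩ := IsPGroup.iff_card.mp hZp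
  have hn0 : n ≠ 0 := by
    rintro rfl
    rw [pow_zero] at hn
    have : Subsingleton (Subgroup.center ↥T) := (Nat.card_eq_one_iff_unique.mp hn).1
    exact not_subsingleton _ this
  have hdvd : p ∣ Nat.card (Subgroup.center ↥T) := by rw [hn]; exact dvd_pow_self p hn0
  obtain ⟨z, hz⟩ := exists_prime_orderOf_dvd_card' p hdvd
  have hzG : orderOf (((z : ↥T) : Γ)) = p := by
    rw [Subgroup.orderOf_coe, Subgroup.orderOf_coe]; exact hz
  intro h0
  have hmem : (((z : ↥T) : Γ)) ∈ AutStmt.Z1 p T := by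
    unfold AutStmt.Z1 omegaOne
    apply Subgroup.subset_closure
    refine ⟨Subgroup.mem_inf.mpr ⟨(z : ↥T).2, ?_⟩, ?_⟩
    · rw [Subgroup.mem_centralizer_iff]
      intro y hy
      have := (Subgroup.mem_center_iff.mp z.2) ⟨y, hy⟩
      exact congrArg Subtype.val this
    · rw [← hzG]; exact pow_orderOf_eq_one _
  rw [h0, Subgroup.mem_bot] at hmem
  rw [hmem, orderOf_one] at hzG
  exact hp.one_lt.ne hzG

end Cfsg.Agent.Lib.Helper11.AutZNE
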