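import Cfsg.Agent.Lib.Helper88.CEStmt
import Cfsg.Agent.S5077
import Cfsg.Agent.Lib.Helper87.FSSat
import Cfsg.Agent.Lib.Helper88.Centric

set_option autoImplicit false

namespace Cfsg.Agent.Lib.Helper11.CEJALL

open Cfsg Cfsg.FusionSystem Cfsg.Agent.Lib.Helper88.FCStmt Cfsg.Agent.Lib.Helper88.CEStmt

universe u

theorem main (hB : Cfsg.Agent.Lib.Helper88.CEStmt.JBase.{u})
    (hS : Cfsg.Agent.Lib.Helper88.CEStmt.JStep.{u})
    (hR : Cfsg.Agent.Lib.Helper88.CEStmt.JRed.{u}) :
    Cfsg.Agent.Lib.Helper88.CEStmt.JAll.{u} := by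
  intro Ω _ S _ p _ hpS F hF T E hE
  have hTS : T ≤ S := hE.1.2.2.2.1.1
  have hfinT : Finite T := Cfsg.Agent.Lib.Helper87.FSSat.finite_of_le hTS
  have hpT : IsPGroup p T := hpS.to_le hTS
  have key : ∀ n : ℕ, ∀ P : Subgroup Ω, E.IsCentric P → Nat.card T - Nat.card P = n →
      JAt F E P := by
    intro n
    induction n using Nat.strong_induction_on with
    | _ n ih =>
      intro P hP hn
      by_cases hPT : P = T
      · subst hPT; exact hB p hpS F hF E hE
      · obtain ⟨P', hconj, hfn⟩ := Cfsg.Agent.S5077.exists_fullyNormalized E hP.1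
        obtain ⟨φ, hφ, hrange⟩ := hconj
        have hP'T : P' ≤ T := hfn.1
        have hcard : Nat.card P' = Nat.card P := by
          rw [← hrange]; exact Cfsg.Agent.Lib.Helper87.FSSat.card_range E hφ
        have hfinP : Finite P := Cfsg.Agent.Lib.Helper87.FSSat.finite_of_le hP.1
        have hP'ne : P' ≠ T := by
          intro h; apply hPT
          exact Subgroup.eq_of_le_of_card_ge hP.1 (by rw [← hcard, h])
        have hP'c : E.IsCentric P' :=
          ⟨hP'T, fun Q hQ => hP.2 Q (Cfsg.Agent.H85.isConj_trans E ⟨φ, hφ, hrange⟩ hQ)⟩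
        have hlt := Cfsg.Agent.Lib.Helper87.FSSat.card_lt_card_normalizerIn hpT hP'T hP'ne
        have hNc : E.IsCentric (normalizerIn T P') :=
          Cfsg.Agent.Lib.Helper88.Centric.isCentric_of_le E hP'c
            (Cfsg.Agent.Lib.Helper87.FSSat.le_normalizerIn hP'T) inf_le_left
        have hJN : JAt F E (normalizerIn T P') := by
          refine ih (Nat.card T - Nat.card (normalizerIn T P')) ?_ _ hNc rfl
          have h1 : Nat.card (normalizerIn T P') ≤ Nat.card T :=
            Subgroup.card_le_of_le inf_le_left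
          omega
        have hJP' := hS p hpS F hF E hE P' hP'c hfn hJN
        exact hR p hpS F hF E hE P hP φ hφ P' hrange hJP'
  intro P hP
  exact key _ P hP rfl

end Cfsg.Agent.Lib.Helper11.CEJALL
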