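import Cfsg.Agent.Lib.Helper88.CEStmt
import Cfsg.Agent.S5111
import Cfsg.Agent.Lib.Helper87.FSSat

set_option autoImplicit false

namespace Cfsg.Agent.Lib.Helper11.CEJNORM

open Cfsg Cfsg.FusionSystem Cfsg.Agent.Lib.Helper88.FCStmt Cfsg.Agent.Lib.Helper88.CEStmt
open Cfsg.Agent.Lib.Helper87.FSBasic Cfsg.Agent.Lib.Helper87.FSSat

universe u

theorem main : Cfsg.Agent.Lib.Helper88.CEStmt.JNorm.{u} := by
  intro Ω _ T _ p _ hpT E hE P hfn α hα hnorm
  have hPT : P ≤ T := hfn.1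
  have hrec : E.IsReceptive P := ((Cfsg.Agent.S5111.result p hpT E).1 hE).2 P hfn
  set φ : P →* Ω := P.subtype.comp α.toMonoidHom with hφdef
  have hφ : φ ∈ E.Hom P := autGroup_hom E hPT hα
  have hrange : φ.range = P := range_autHom α
  obtain ⟨ψ₀, hψ₀, hext⟩ := hrec.2 P φ hφ hrange
  have hle : normalizerIn T P ≤ extender T P φ := by
    intro g hg
    obtain ⟨hgT, hgN⟩ := hg
    apply Subgroup.subset_closure
    obtain ⟨t', ht', h⟩ := hnorm g ⟨hgT, hgN⟩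
    exact ⟨hgT, hgN, t', ht'.1, fun x hx => h x hx⟩
  set ψ : normalizerIn T P →* Ω := ψ₀.comp (Subgroup.inclusion hle) with hψdef
  have hψ : ψ ∈ E.Hom (normalizerIn T P) := restrict_mem E hψ₀ hle
  have hPN : P ≤ normalizerIn T P := le_normalizerIn hPT
  have hψP : ∀ (u : P), ψ ⟨u, hPN u.2⟩ = ((α u : P) : Ω) := by
    intro u
    exact hext u u.2 (hle (hPN u.2))
  -- `ψ t` conjugates `P` into `P`
  have hfwd : ∀ t : normalizerIn T P, ∀ h ∈ P, ψ t * h * (ψ t)⁻¹ ∈ P := by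
    intro t h hh
    set u' : P := α⁻¹ ⟨h, hh⟩ with hu'
    have h1 : ψ ⟨u', hPN u'.2⟩ = h := by
      rw [hψP, hu', MulAut.apply_inv_self]
    have h2 : (t : Ω) * (u' : Ω) * (t : Ω)⁻¹ ∈ P := by
      have := (Subgroup.mem_normalizer_iff.mp t.2.2 (u' : Ω)).mp u'.2
      exact this
    have h3 : ψ t * h * (ψ t)⁻¹ = ψ ⟨(t : Ω) * (u' : Ω) * (t : Ω)⁻¹, hPN h2⟩ := by
      rw [← h1, ← map_inv, ← map_mul, ← map_mul]
      rfl
    rw [h3]
    have h4 := hψP ⟨(t : Ω) * (u' : Ω) * (t : Ω)⁻¹, h2⟩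
    rw [h4]
    exact (α _).2
  have hrange_le : ψ.range ≤ normalizerIn T P := by
    rintro _ ⟨t, rfl⟩
    refine ⟨map_mem E hψ t, ?_⟩
    show ψ t ∈ Subgroup.normalizer (P : Set Ω)
    rw [Subgroup.mem_normalizer_iff]
    intro h
    constructor
    · exact hfwd t h
    · intro hh
      have h5 := hfwd t⁻¹ _ hh
      have h6 : ψ t⁻¹ * (ψ t * h * (ψ t)⁻¹) * (ψ t⁻¹)⁻¹ = h := by
        rw [map_inv]; group
      rw [h6] at h5
      exact h5
  have hfinN : Finite (normalizerIn T P) := finite_of_le inf_le_left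
  have hr : ψ.range = normalizerIn T P := by
    apply Subgroup.eq_of_le_of_card_ge hrange_le
    rw [card_range E hψ]
  refine ⟨autOfMap ψ (E.injective_of_mem hψ) hr, autOfMap_mem E hψ hr, ?_⟩
  intro u hu
  rw [autOfMap_coe]
  exact hψP u

end Cfsg.Agent.Lib.Helper11.CEJNORM
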