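import Mathlib
import Cfsg.Agent.Lib.Helper32.D8Stmt

/-!
# S3716, piece CS2 (second seat): class-pair sums when `a ~ a*b`.
-/

set_option autoImplicit false

namespace Cfsg.Agent.Lib.Helper11.D8CS2

open Cfsg
open Cfsg.Agent.Lib.Helper32.D8Stmt

universe u

open Classical

section gen

variable {G : Type u} [Group G] [Fintype G]

theorem mem_ncl (N : Subgroup G) (c z : G) : z ∈ ncl N c ↔ ∃ n ∈ N, z = n * c * n⁻¹ := by
  unfold ncl
  rw [Finset.mem_filter]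
  simp

theorem ncl_eq_of_mem (N : Subgroup G) {c c' : G} (h : c' ∈ ncl N c) : ncl N c' = ncl N c := by
  rw [mem_ncl] at h
  obtain ⟨n, hn, rfl⟩ := h
  ext z
  rw [mem_ncl, mem_ncl]
  constructor
  · rintro ⟨m, hm, rfl⟩
    exact ⟨m * n, N.mul_mem hm hn, by group⟩
  · rintro ⟨m, hm, rfl⟩
    exact ⟨m * n⁻¹, N.mul_mem hm (N.inv_mem hn), by group⟩

theorem isConj_of_mem_ncl (N : Subgroup G) {c z : G} (h : z ∈ ncl N c) : IsConj c z := by
  rw [mem_ncl] at h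
  obtain ⟨n, hn, rfl⟩ := h
  exact isConj_iff.mpr ⟨n, rfl⟩

theorem sq_of_conj {u v : G} (hu : u ^ 2 = 1) (h : IsConj u v) : v ^ 2 = 1 := by
  obtain ⟨c, hc⟩ := isConj_iff.mp h
  rw [← hc, conj_pow, hu, mul_one, mul_inv_cancel]

/-- the class-pair sum of an induced function, reduced to two finite sets containing the
support. -/
theorem key (hPS : PAIRSUM2.{u}) (hFIB : FIB2b.{u})
    (H : Subgroup G) (θ : H → ℂ) (u v : G) (S₁ S₂ : Finset G)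
    (h1 : ∀ z ∈ S₁, IsConj u z) (h2 : ∀ z ∈ S₂, IsConj v z)
    (hz : ∀ u₁ u₂ : G, IsConj u u₁ → IsConj v u₂ → extendByZero H θ (u₁ * u₂) ≠ 0 →
      u₁ ∈ S₁ ∧ u₂ ∈ S₂) :
    bb (indFun H θ) u v = (Nat.card G : ℂ)⁻¹ * ((Nat.card H : ℂ)⁻¹ * (cz u * cz v *
      ∑ u₁ ∈ S₁, ∑ u₂ ∈ S₂, extendByZero H θ (u₁ * u₂))) := by
  unfold bb
  rw [hPS H θ u v, hFIB (fun p q => extendByZero H θ (p * q)) u v]
  refine congrArg _ (congrArg _ (congrArg _ ?_))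
  symm
  refine Eq.trans (Finset.sum_congr rfl (fun u₁ hu₁ => Finset.sum_subset
    (fun z hz' => Finset.mem_filter.mpr ⟨Finset.mem_univ _, h2 z hz'⟩) ?_))
    (Finset.sum_subset (fun z hz' => Finset.mem_filter.mpr ⟨Finset.mem_univ _, h1 z hz'⟩) ?_)
  · intro u₂ hu₂ hu₂'
    by_contra hne
    exact hu₂' (hz u₁ u₂ (h1 u₁ hu₁) (Finset.mem_filter.mp hu₂).2 hne).2
  · intro u₁ hu₁ hu₁'
    apply Finset.sum_eq_zero
    intro u₂ hu₂
    by_contra hne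
    exact hu₁' (hz u₁ u₂ (Finset.mem_filter.mp hu₁).2 (Finset.mem_filter.mp hu₂).2 hne).1

theorem sum_union4 (S S' : Finset G) (hd : Disjoint S S') (φ : G → ℂ) :
    ∑ u₁ ∈ S ∪ S', ∑ u₂ ∈ S ∪ S', φ (u₁ * u₂) =
      ∑ u₁ ∈ S, ∑ u₂ ∈ S, φ (u₁ * u₂) + ∑ u₁ ∈ S, ∑ u₂ ∈ S', φ (u₁ * u₂) +
      ∑ u₁ ∈ S', ∑ u₂ ∈ S, φ (u₁ * u₂) + ∑ u₁ ∈ S', ∑ u₂ ∈ S', φ (u₁ * u₂) := by
  rw [Finset.sum_union hd]
  simp only [Finset.sum_union hd, Finset.sum_add_distrib]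
  ring

end gen

theorem main (hPS : PAIRSUM2.{u}) (hFIB : FIB2b.{u}) (hRED : RED2.{u}) (hINV : INVCL.{u})
    (hNF : NF.{u}) (hAA : LOCaa.{u}) (hAZ : LOCaz.{u}) (hZA : LOCza.{u}) (hZZ : LOCzz.{u})
    (hAW : LOCaw.{u}) (hZW : LOCzw.{u}) (hWW : LOCww.{u}) : CS2.{u} := by
  intro G _ _ T N x y a b w hc f g hO hnaw hab
  have hcardH : Nat.card (Subgroup.centralizer ({x} : Set G)) = 18 := (hNF hc).2.2.2.2.2.2
  obtain ⟨aa1, aa2⟩ := hAA hc f g hO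
  obtain ⟨az1, az2⟩ := hAZ hc f g hO
  obtain ⟨za1, za2⟩ := hZA hc f g hO
  obtain ⟨zz1, zz2⟩ := hZZ hc f g hO
  obtain ⟨aw1, aw2⟩ := hAW hc f g hO
  obtain ⟨zw1, zw2⟩ := hZW hc f g hO
  obtain ⟨ww1, ww2⟩ := hWW hc f g hO
  unfold lsum at aa1 aa2 az1 az2 za1 za2 zz1 zz2 aw1 aw2 zw1 zw2 ww1 ww2
  have ha1 : a ≠ 1 := by
    intro h
    have h1 := hc.ax
    rw [h] at h1
    simp only [one_mul, inv_one, mul_one] at h1
    have h2 : x * x = 1 := by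
      nth_rewrite 2 [h1]
      exact mul_inv_cancel x
    have h3 : x = 1 := by
      have := hc.x3
      rw [pow_succ, pow_two, h2, one_mul] at this
      exact this
    exact hc.x1 h3
  have hw1 : w ≠ 1 := by
    intro h
    have h1 := hc.wx
    rw [h] at h1
    simp only [one_mul, inv_one, mul_one] at h1
    exact hc.yx (h1 ▸ Subgroup.mem_zpowers x)
  have ha2 : a ^ 2 = 1 := hc.a2
  have hw2 : w ^ 2 = 1 := hc.w2
  have habN : a * b ∈ N := N.mul_mem hc.aN hc.bN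
  -- disjointness of the two N-classes
  have hdisj : Disjoint (ncl N a) (ncl N (a * b)) := by
    by_contra hnd
    rw [Finset.not_disjoint_iff] at hnd
    obtain ⟨z, hz1, hz2⟩ := hnd
    have e1 := ncl_eq_of_mem N hz1
    have e2 := ncl_eq_of_mem N hz2
    have e : ncl N (a * b) = ncl N a := by rw [← e2, e1]
    rw [e] at zz1
    rw [aa1] at zz1
    norm_num at zz1
  have hAmem : ∀ z ∈ ncl N a ∪ ncl N (a * b), IsConj a z := by
    intro z hz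
    rcases Finset.mem_union.mp hz with h | h
    · exact isConj_of_mem_ncl N h
    · exact hab.trans (isConj_of_mem_ncl N h)
  have hWmem : ∀ z ∈ ncl N w, IsConj w z := fun z hz => isConj_of_mem_ncl N hz
  have hAcl : ∀ z, IsConj a z → z ∈ N → z ∈ ncl N a ∪ ncl N (a * b) := by
    intro z hza hzN
    rcases hINV hc z hzN (sq_of_conj ha2 hza) with h | h | h | h
    · exfalso
      rw [h] at hza
      exact ha1 (isConj_one_left.mp hza)
    · exact Finset.mem_union_left _ ((mem_ncl N a z).mpr h)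
    · exfalso
      have : IsConj w z := isConj_of_mem_ncl N ((mem_ncl N w z).mpr h)
      exact hnaw (hza.trans this.symm)
    · exact Finset.mem_union_right _ ((mem_ncl N (a * b) z).mpr h)
  have hWcl : ∀ z, IsConj w z → z ∈ N → z ∈ ncl N w := by
    intro z hzw hzN
    rcases hINV hc z hzN (sq_of_conj hw2 hzw) with h | h | h | h
    · exfalso
      rw [h] at hzw
      exact hw1 (isConj_one_left.mp hzw)
    · exfalso
      have : IsConj a z := isConj_of_mem_ncl N ((mem_ncl N a z).mpr h)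
      exact hnaw (this.trans hzw.symm)
    · exact (mem_ncl N w z).mpr h
    · exfalso
      have : IsConj (a * b) z := isConj_of_mem_ncl N ((mem_ncl N (a * b) z).mpr h)
      exact hnaw ((hab.trans this).trans hzw.symm)
  -- supports
  have hred1 : ∀ u₁ u₂ : G, u₁ ^ 2 = 1 → u₂ ^ 2 = 1 →
      extendByZero (Subgroup.centralizer ({x} : Set G)) (ph1 x f) (u₁ * u₂) ≠ 0 →
      u₁ ∈ N ∧ u₂ ∈ N := fun u₁ u₂ h1 h2 h => hRED hc f g hO u₁ u₂ h1 h2 (Or.inl h)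
  have hred2 : ∀ u₁ u₂ : G, u₁ ^ 2 = 1 → u₂ ^ 2 = 1 →
      extendByZero (Subgroup.centralizer ({x} : Set G)) (ph2 x f g) (u₁ * u₂) ≠ 0 →
      u₁ ∈ N ∧ u₂ ∈ N := fun u₁ u₂ h1 h2 h => hRED hc f g hO u₁ u₂ h1 h2 (Or.inr h)
  have kaa : ∀ θ : Subgroup.centralizer ({x} : Set G) → ℂ,
      (∀ u₁ u₂ : G, u₁ ^ 2 = 1 → u₂ ^ 2 = 1 →
        extendByZero (Subgroup.centralizer ({x} : Set G)) θ (u₁ * u₂) ≠ 0 → u₁ ∈ N ∧ u₂ ∈ N) →
      bb (indFun (Subgroup.centralizer ({x} : Set G)) θ) a a =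
        (Nat.card G : ℂ)⁻¹ * ((18 : ℂ)⁻¹ * (cz a * cz a *
          ∑ u₁ ∈ ncl N a ∪ ncl N (a * b), ∑ u₂ ∈ ncl N a ∪ ncl N (a * b),
            extendByZero (Subgroup.centralizer ({x} : Set G)) θ (u₁ * u₂))) := by
    intro θ hθ
    rw [key hPS hFIB _ θ a a _ _ hAmem hAmem, hcardH]
    · norm_num
    · intro u₁ u₂ h1 h2 hne
      obtain ⟨m1, m2⟩ := hθ u₁ u₂ (sq_of_conj ha2 h1) (sq_of_conj ha2 h2) hne
      exact ⟨hAcl u₁ h1 m1, hAcl u₂ h2 m2⟩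
  have kaw : ∀ θ : Subgroup.centralizer ({x} : Set G) → ℂ,
      (∀ u₁ u₂ : G, u₁ ^ 2 = 1 → u₂ ^ 2 = 1 →
        extendByZero (Subgroup.centralizer ({x} : Set G)) θ (u₁ * u₂) ≠ 0 → u₁ ∈ N ∧ u₂ ∈ N) →
      bb (indFun (Subgroup.centralizer ({x} : Set G)) θ) a w =
        (Nat.card G : ℂ)⁻¹ * ((18 : ℂ)⁻¹ * (cz a * cz w *
          ∑ u₁ ∈ ncl N a ∪ ncl N (a * b), ∑ u₂ ∈ ncl N w,
            extendByZero (Subgroup.centralizer ({x} : Set G)) θ (u₁ * u₂))) := by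
    intro θ hθ
    rw [key hPS hFIB _ θ a w _ _ hAmem hWmem, hcardH]
    · norm_num
    · intro u₁ u₂ h1 h2 hne
      obtain ⟨m1, m2⟩ := hθ u₁ u₂ (sq_of_conj ha2 h1) (sq_of_conj hw2 h2) hne
      exact ⟨hAcl u₁ h1 m1, hWcl u₂ h2 m2⟩
  have kww : ∀ θ : Subgroup.centralizer ({x} : Set G) → ℂ,
      (∀ u₁ u₂ : G, u₁ ^ 2 = 1 → u₂ ^ 2 = 1 →
        extendByZero (Subgroup.centralizer ({x} : Set G)) θ (u₁ * u₂) ≠ 0 → u₁ ∈ N ∧ u₂ ∈ N) →
      bb (indFun (Subgroup.centralizer ({x} : Set G)) θ) w w =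
        (Nat.card G : ℂ)⁻¹ * ((18 : ℂ)⁻¹ * (cz w * cz w *
          ∑ u₁ ∈ ncl N w, ∑ u₂ ∈ ncl N w,
            extendByZero (Subgroup.centralizer ({x} : Set G)) θ (u₁ * u₂))) := by
    intro θ hθ
    rw [key hPS hFIB _ θ w w _ _ hWmem hWmem, hcardH]
    · norm_num
    · intro u₁ u₂ h1 h2 hne
      obtain ⟨m1, m2⟩ := hθ u₁ u₂ (sq_of_conj hw2 h1) (sq_of_conj hw2 h2) hne
      exact ⟨hWcl u₁ h1 m1, hWcl u₂ h2 m2⟩
  refine ⟨⟨?_, ?_, ?_⟩, ⟨?_, ?_, ?_⟩⟩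
  · show bb (indFun (Subgroup.centralizer ({x} : Set G)) (ph1 x f)) a a = _
    rw [kaa _ hred1, sum_union4 _ _ hdisj, aa1, az1, za1, zz1, div_eq_mul_inv]
    ring
  · show bb (indFun (Subgroup.centralizer ({x} : Set G)) (ph1 x f)) a w = _
    rw [kaw _ hred1, Finset.sum_union hdisj, aw1, zw1]
    ring
  · show bb (indFun (Subgroup.centralizer ({x} : Set G)) (ph1 x f)) w w = _
    rw [kww _ hred1, ww1, div_eq_mul_inv]
    ring
  · show bb (indFun (Subgroup.centralizer ({x} : Set G)) (ph2 x f g)) a a = _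
    rw [kaa _ hred2, sum_union4 _ _ hdisj, aa2, az2, za2, zz2, div_eq_mul_inv]
    ring
  · show bb (indFun (Subgroup.centralizer ({x} : Set G)) (ph2 x f g)) a w = _
    rw [kaw _ hred2, Finset.sum_union hdisj, aw2, zw2]
    ring
  · show bb (indFun (Subgroup.centralizer ({x} : Set G)) (ph2 x f g)) w w = _
    rw [kww _ hred2, ww2, div_eq_mul_inv]
    ring

end Cfsg.Agent.Lib.Helper11.D8CS2
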