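import Mathlib
import Cfsg.Prelude.Def_FusionSystem
import Cfsg.Agent.H85.Alperin
import Cfsg.Agent.H84.FusSat2
import Cfsg.Agent.Lib.Helper88.FSBase
import Cfsg.Agent.Lib.Helper87.FSNormal
import Cfsg.Agent.S5077

/-!
# Weak closure of central elements in saturated fusion systems: the "maximal active" method

`z` is an element of the centre of `S`.  A subgroup `Y ≤ S` is *active* (for `z`) if it
contains `z` and some map of the system from `Y` to `Y` moves `z`.  This file has the generic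
tools: Alperin tracking of `z`, existence of an active subgroup maximizing
`(|N_S(Y)|, |Y|)`, extension of a moving automorphism of a receptive `Y` to `Y C_S(Y)`,
and transport of a moving automorphism along a map of the system fixing `z`.
-/

set_option autoImplicit false

namespace Cfsg.Agent.Lib.Helper11.FusWeak

open Cfsg Cfsg.FusionSystem

universe u

variable {Ω : Type u} [Group Ω] {S : Subgroup Ω}

/-- `Y` is active for `z`: some map of the system from `Y` into `Y` moves `z`. -/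
def Active (F : FusionSystem S) (z : Ω) (Y : Subgroup Ω) : Prop :=
  ∃ φ ∈ F.Hom Y, (∀ y : Y, φ y ∈ Y) ∧ ∃ hz : z ∈ Y, φ ⟨z, hz⟩ ≠ z

theorem Active.le {F : FusionSystem S} {z : Ω} {Y : Subgroup Ω} (h : Active F z Y) : Y ≤ S := by
  obtain ⟨φ, hφ, -, -⟩ := h
  exact (F.le_of_mem hφ).1

/-- the lexicographic measure `(|N_S(Y)|, |Y|)` as one number -/
noncomputable def msr (S Y : Subgroup Ω) : ℕ :=
  Nat.card (normalizerIn S Y) * (Nat.card S + 1) + Nat.card Y

theorem msr_lt_of_normalizer [Finite S] {X Y : Subgroup Ω} (hXS : X ≤ S)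
    (h : Nat.card (normalizerIn S X) < Nat.card (normalizerIn S Y)) : msr S X < msr S Y := by
  have h2 : Nat.card X ≤ Nat.card S := Subgroup.card_le_of_le hXS
  unfold msr
  have h3 : (Nat.card (normalizerIn S X) + 1) * (Nat.card S + 1) ≤
      Nat.card (normalizerIn S Y) * (Nat.card S + 1) := Nat.mul_le_mul_right _ h
  nlinarith

theorem msr_lt_of_card {X Y : Subgroup Ω}
    (h1 : Nat.card (normalizerIn S X) ≤ Nat.card (normalizerIn S Y))
    (h2 : Nat.card X < Nat.card Y) : msr S X < msr S Y := by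
  unfold msr
  have h3 : Nat.card (normalizerIn S X) * (Nat.card S + 1) ≤
      Nat.card (normalizerIn S Y) * (Nat.card S + 1) := Nat.mul_le_mul_right _ h1
  omega

/-- an active subgroup maximizing the measure -/
theorem exists_max [Finite S] (F : FusionSystem S) (z : Ω) (h : ∃ Y, Active F z Y) :
    ∃ X, Active F z X ∧ ∀ Y, Active F z Y → msr S Y ≤ msr S X := by
  let s : Set ℕ := {n | ∃ Y, Active F z Y ∧ msr S Y = n}
  have hne : s.Nonempty := by
    obtain ⟨Y, hY⟩ := h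
    exact ⟨_, Y, hY, rfl⟩
  have hbdd : BddAbove s := by
    refine ⟨Nat.card S * (Nat.card S + 1) + Nat.card S, ?_⟩
    rintro n ⟨Y, hY, rfl⟩
    have h1 : Nat.card (normalizerIn S Y) ≤ Nat.card S := Subgroup.card_le_of_le inf_le_left
    have h2 : Nat.card Y ≤ Nat.card S := Subgroup.card_le_of_le hY.le
    unfold msr
    have h3 : Nat.card (normalizerIn S Y) * (Nat.card S + 1) ≤
        Nat.card S * (Nat.card S + 1) := Nat.mul_le_mul_right _ h1
    omega
  obtain ⟨X, hX, hXm⟩ := Nat.sSup_mem hne hbdd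
  exact ⟨X, hX, fun Y hY => hXm ▸ le_csSup hbdd ⟨Y, hY, rfl⟩⟩

/-- Alperin tracking: if no subgroup of order at least `m` is active, every map of the system
defined on a subgroup of order at least `m` fixes `z` (and sends nothing else to `z`). -/
theorem fix_of_no_active [Finite S] {p : ℕ} [Fact p.Prime] (hS : IsPGroup p S)
    (F : FusionSystem S) (hF : F.IsSaturated p) (z : Ω) (hzS : z ∈ S)
    (hzc : ∀ s ∈ S, s * z = z * s) (m : ℕ)
    (hno : ∀ Y, Active F z Y → Nat.card Y < m) :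
    ∀ (P : Subgroup Ω) (φ : P →* Ω), φ ∈ F.Hom P → m ≤ Nat.card P →
      ∀ a : P, φ a = z ↔ (a : Ω) = z := by
  have key := Cfsg.Agent.H85.alperin_induction hS F hF
    (fun P => {φ | φ ∈ F.Hom P ∧ (m ≤ Nat.card P → ∀ a : P, φ a = z ↔ (a : Ω) = z)})
    ?hres ?hcomp ?hinv ?haut
  · intro P φ hφ
    exact (key P φ hφ).2
  case hres =>
    rintro P R φ ⟨hφ, h⟩ hRP
    refine ⟨Cfsg.Agent.H85.restrict_mem F hφ hRP, fun hm a => ?_⟩
    have hPS := (F.le_of_mem hφ).1
    have : Finite P := Cfsg.Agent.H85.finite_of_le hPS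
    have hc : Nat.card R ≤ Nat.card P := Subgroup.card_le_of_le hRP
    exact h (hm.trans hc) (Subgroup.inclusion hRP a)
  case hcomp =>
    rintro P Q φ ψ ⟨hφ, h1⟩ ⟨hψ, h2⟩ h
    refine ⟨F.comp_mem hφ hψ h, fun hm a => ?_⟩
    have hQS := (F.le_of_mem hψ).1
    have : Finite Q := Cfsg.Agent.H85.finite_of_le hQS
    have hc : Nat.card P ≤ Nat.card Q :=
      Nat.card_le_card_of_injective (φ.codRestrict Q h)
        (fun a b hab => F.injective_of_mem hφ (congrArg Subtype.val hab))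
    show ψ ⟨φ a, h a⟩ = z ↔ (a : Ω) = z
    rw [h2 (hm.trans hc) ⟨φ a, h a⟩]
    exact h1 hm a
  case hinv =>
    rintro P Q e he ⟨-, h⟩
    refine ⟨Cfsg.Agent.H85.isIso_symm F he, fun hm b => ?_⟩
    have hc : Nat.card P = Nat.card Q := Nat.card_congr e.toEquiv
    have h1 := h (hc ▸ hm) (e.symm b)
    show ((e.symm b : P) : Ω) = z ↔ (b : Ω) = z
    rw [← h1]
    show ((e (e.symm b) : Q) : Ω) = z ↔ (b : Ω) = z
    rw [e.apply_symm_apply]
  case haut =>
    intro T hfa hrec α hα hext _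
    have hTS := hfa.1
    have hαF := (Cfsg.Agent.H85.mem_autGroup_iff F hTS α).mp hα
    refine ⟨hαF, fun hm a => ?_⟩
    have hzT : z ∈ T := by
      apply hext
      apply Cfsg.Agent.H85.centralizerIn_le_extender
      refine ⟨hzS, ?_⟩
      show z ∈ Subgroup.centralizer (T : Set Ω)
      rw [Subgroup.mem_centralizer_iff]
      intro t ht
      exact hzc t (hTS ht)
    have hfix : α ⟨z, hzT⟩ = ⟨z, hzT⟩ := by
      by_contra hne
      have hact : Active F z T :=
        ⟨_, hαF, fun y => (α y).2, hzT, fun h => hne (Subtype.ext h)⟩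
      exact absurd (hno T hact) (not_lt.mpr hm)
    show ((α a : T) : Ω) = z ↔ (a : Ω) = z
    constructor
    · intro h
      have h3 : α a = α ⟨z, hzT⟩ := by rw [hfix]; exact Subtype.ext h
      exact congrArg Subtype.val (α.injective h3)
    · intro h
      have h3 : a = ⟨z, hzT⟩ := Subtype.ext h
      rw [h3, hfix]

/-- conjugation preserving two subgroups preserves their join -/
theorem conj_mem_sup {A B : Subgroup Ω} {g : Ω} (hA : ∀ a ∈ A, g * a * g⁻¹ ∈ A)
    (hB : ∀ b ∈ B, g * b * g⁻¹ ∈ B) : ∀ x ∈ A ⊔ B, g * x * g⁻¹ ∈ A ⊔ B := by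
  have h : A ⊔ B ≤ (A ⊔ B).comap (MulAut.conj g).toMonoidHom := by
    apply sup_le
    · intro a ha
      exact Subgroup.mem_sup_left (hA a ha)
    · intro b hb
      exact Subgroup.mem_sup_right (hB b hb)
  intro x hx
  exact h hx

/-- `N_S(Y)` normalizes `Y C_S(Y)` -/
theorem normalizerIn_le_sup_centralizerIn (S Y : Subgroup Ω) :
    normalizerIn S Y ≤ normalizerIn S (Y ⊔ centralizerIn S Y) := by
  have key : ∀ g : Ω, g ∈ normalizerIn S Y →
      ∀ x ∈ Y ⊔ centralizerIn S Y, g * x * g⁻¹ ∈ Y ⊔ centralizerIn S Y := by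
    intro g hg
    have hgN := hg.2
    apply conj_mem_sup
    · intro a ha
      exact ((Subgroup.mem_normalizer_iff.mp hgN) a).mp ha
    · intro c hc
      refine ⟨S.mul_mem (S.mul_mem hg.1 hc.1) (S.inv_mem hg.1), ?_⟩
      show g * c * g⁻¹ ∈ Subgroup.centralizer (Y : Set Ω)
      rw [Subgroup.mem_centralizer_iff]
      intro y hy
      have hy' : g⁻¹ * y * g ∈ Y := by
        have := ((Subgroup.mem_normalizer_iff.mp (Subgroup.inv_mem _ hgN)) y).mp hy
        rwa [inv_inv] at this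
      have hcomm := (Subgroup.mem_centralizer_iff.mp hc.2) _ hy'
      calc y * (g * c * g⁻¹) = g * ((g⁻¹ * y * g) * c) * g⁻¹ := by group
        _ = g * (c * (g⁻¹ * y * g)) * g⁻¹ := by rw [hcomm]
        _ = g * c * g⁻¹ * y := by group
  intro g hg
  refine ⟨hg.1, Cfsg.Agent.H85.mem_normalizer_of_forall (key g hg) ?_⟩
  intro t ht
  have hginv : g⁻¹ ∈ normalizerIn S Y := (normalizerIn S Y).inv_mem hg
  have := key g⁻¹ hginv t ht
  rwa [inv_inv] at this

/-- a moving automorphism of a receptive subgroup extends to `Y C_S(Y)` -/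
theorem active_sup_centralizer [Finite S] (F : FusionSystem S) {z : Ω} {Y : Subgroup Ω}
    (hrec : F.IsReceptive Y) {φ : Y →* Ω} (hφ : φ ∈ F.Hom Y) (hY : ∀ y : Y, φ y ∈ Y)
    (hz : z ∈ Y) (hne : φ ⟨z, hz⟩ ≠ z) : Active F z (Y ⊔ centralizerIn S Y) := by
  have hYS := hrec.1
  have : Finite Y := Cfsg.Agent.H85.finite_of_le hYS
  have hr : φ.range = Y := Cfsg.Agent.Lib.Helper88.FSBase.range_eq_of_finite F hφ hY
  obtain ⟨ψ, hψ, hψx⟩ := Cfsg.Agent.H85.receptive_extend_sup F hrec hφ hr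
  have hsurj : ∀ y ∈ Y, ∃ x : Y, ψ (Subgroup.inclusion le_sup_left x) = y := by
    intro y hy
    rw [← hr] at hy
    obtain ⟨x, rfl⟩ := hy
    exact ⟨x, hψx x⟩
  refine ⟨ψ, hψ, ?_, Subgroup.mem_sup_left hz, ?_⟩
  · apply Cfsg.Agent.Lib.Helper87.FSNormal.sup_map_mem ψ
    · intro x
      rw [hψx]
      exact Subgroup.mem_sup_left (hY x)
    · intro c
      exact Subgroup.mem_sup_right (Cfsg.Agent.H85.map_centralizer_mem F hψ hsurj _ c.2)
  · have h1 := hψx ⟨z, hz⟩
    intro h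
    apply hne
    rw [← h1]
    exact h

/-- transport of a moving automorphism along a map of the system fixing `z` -/
theorem transport [Finite S] (F : FusionSystem S) {z : Ω} {A V P : Subgroup Ω} (hVA : V ≤ A)
    {ξ : A →* Ω} (hξ : ξ ∈ F.Hom A) (hVP : ∀ x : A, (x : Ω) ∈ V → ξ x ∈ P)
    (hPS : P ≤ S) (hcard : Nat.card P ≤ Nat.card V)
    {θ : V →* Ω} (hθ : θ ∈ F.Hom V) (hθV : ∀ v : V, θ v ∈ V) (hz : z ∈ V)
    (hξz : ξ ⟨z, hVA hz⟩ = z) (hne : θ ⟨z, hz⟩ ≠ z) :
    ∃ θ' ∈ F.Hom P, (∀ y : P, θ' y ∈ P) ∧ ∃ hz' : z ∈ P, θ' ⟨z, hz'⟩ ≠ z := by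
  have : Finite P := Cfsg.Agent.H85.finite_of_le hPS
  have hξV : ξ.comp (Subgroup.inclusion hVA) ∈ F.Hom V := Cfsg.Agent.H85.restrict_mem F hξ hVA
  have hinj := F.injective_of_mem hξV
  have hval : ∀ v : V, (ξ.comp (Subgroup.inclusion hVA)) v ∈ P := fun v => hVP _ v.2
  have hinj' : Function.Injective ((ξ.comp (Subgroup.inclusion hVA)).codRestrict P hval) :=
    fun a b hab => hinj (congrArg Subtype.val hab)
  have hbij := hinj'.bijective_of_nat_card_le hcard
  have hle : P ≤ (ξ.comp (Subgroup.inclusion hVA)).range := by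
    intro y hy
    obtain ⟨v, hv⟩ := hbij.2 ⟨y, hy⟩
    exact ⟨v, congrArg Subtype.val hv⟩
  obtain ⟨ψ, hψ, hψx⟩ := Cfsg.Agent.H85.inv_mem' F hξV hle
  have hψV : ∀ y : P, ψ y ∈ V := by
    intro y
    obtain ⟨v, hv⟩ := hbij.2 y
    have h1 := hψx v (hval v)
    have h2 : (⟨(ξ.comp (Subgroup.inclusion hVA)) v, hval v⟩ : P) = y := hv
    rw [h2] at h1
    rw [h1]
    exact v.2
  have hχ : θ.comp (ψ.codRestrict V hψV) ∈ F.Hom P := F.comp_mem hψ hθ hψV
  have hχV : ∀ y : P, (θ.comp (ψ.codRestrict V hψV)) y ∈ V := fun y => hθV _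
  have hθ' := F.comp_mem hχ hξV hχV
  have hzP : z ∈ P := by
    have := hval ⟨z, hz⟩
    have e : (ξ.comp (Subgroup.inclusion hVA)) ⟨z, hz⟩ = z := hξz
    rwa [e] at this
  refine ⟨_, hθ', fun y => hval _, hzP, ?_⟩
  have hψz : ψ ⟨z, hzP⟩ = z := by
    have h1 := hψx ⟨z, hz⟩ (hval _)
    have h2 : (⟨(ξ.comp (Subgroup.inclusion hVA)) ⟨z, hz⟩, hval ⟨z, hz⟩⟩ : P) = ⟨z, hzP⟩ :=
      Subtype.ext hξz
    rw [h2] at h1
    exact h1
  have h3 : (ψ.codRestrict V hψV) ⟨z, hzP⟩ = ⟨z, hz⟩ := Subtype.ext hψz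
  intro h
  have h4 : (ξ.comp (Subgroup.inclusion hVA))
      ⟨θ ((ψ.codRestrict V hψV) ⟨z, hzP⟩), hθV _⟩ = z := h
  rw [h3] at h4
  have h5 : (ξ.comp (Subgroup.inclusion hVA)) ⟨θ ⟨z, hz⟩, hθV _⟩ =
      (ξ.comp (Subgroup.inclusion hVA)) ⟨z, hz⟩ := by
    rw [h4]
    exact hξz.symm
  exact hne (congrArg Subtype.val (hinj h5))

end Cfsg.Agent.Lib.Helper11.FusWeak
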