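import Cfsg.Agent.Lib.Helper26.J3Stmt

set_option autoImplicit false

namespace Cfsg.Agent.Lib.Helper11.J3EINT

open Cfsg.Agent.Lib.Helper26.J3Stmt

universe u

theorem card_SL : Nat.card SL = 24 := by
  rw [Nat.card_eq_fintype_card]
  decide

/-- the index of `R` is 24. -/
theorem index_R {X : Type u} [Group X] (hX : Hyp X) : (R X).index = 24 := by
  obtain ⟨hfin, hES, hcard, hexp, ⟨e⟩, h2, hE⟩ := hX
  rw [Subgroup.index_eq_card, Nat.card_congr e.toEquiv, card_SL]

/-- `R` is not contained in an abelian subgroup. -/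
theorem R_not_le_abelian {X : Type u} [Group X] (hX : Hyp X) (hZ : ZFacts X)
    (E : Subgroup X) (hE : ∀ a ∈ E, ∀ b ∈ E, a * b = b * a) : ¬ R X ≤ E := by
  intro hle
  obtain ⟨hfin, hES, hcard, hexp, hq, h2, hE'⟩ := hX
  obtain ⟨hZ3, hZR, hZcomm, hZchar, hZcent⟩ := hZ
  have := hfin
  have h1 : R X ≤ Zc X := fun r hr => hZchar r hr (fun s hs => hE r (hle hr) s (hle hs))
  have h2 := Subgroup.card_le_of_le h1
  rw [hZ3] at h2
  have h27 : Nat.card (R X) = 27 := hcard
  omega

theorem main : Cfsg.Agent.Lib.Helper26.J3Stmt.EINT.{u} := by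
  intro X _ hX hZ E hEc hE27
  have hidx := index_R hX
  have hX' := hX
  obtain ⟨hfin, hES, hcard, hexp, hq, h2, hE'⟩ := hX
  have hZ' := hZ
  obtain ⟨hZ3, hZR, hZcomm, hZchar, hZcent⟩ := hZ
  have := hfin
  have h27 : Nat.card (R X) = 27 := hcard
  have hEcomm : ∀ a ∈ E, ∀ b ∈ E, a * b = b * a := by
    intro a ha b hb
    have := hEc.is_comm.comm (⟨a, ha⟩ : E) ⟨b, hb⟩
    exact congrArg Subtype.val this
  -- the relative index divides 3
  have hd1 : (R X).relIndex E ∣ 24 := by
    rw [← hidx]; exact Subgroup.relIndex_dvd_index_of_normal (R X) E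
  have hd2 : (R X).relIndex E ∣ 27 := by
    rw [← hE27]; exact Subgroup.relIndex_dvd_card (R X) E
  have hd3 : (R X).relIndex E ∣ 3 := by
    have := Nat.dvd_gcd hd1 hd2
    norm_num at this
    exact this
  have hmul : Nat.card (R X ⊓ E : Subgroup X) * (R X).relIndex E = 27 := by
    have := Subgroup.relIndex_mul_relIndex (⊥ : Subgroup X) (R X ⊓ E) E bot_le inf_le_right
    rw [Subgroup.relIndex_bot_left, Subgroup.relIndex_bot_left, Subgroup.inf_relIndex_right,
      hE27] at this
    exact this
  have hcomm_inf : (E ⊓ R X : Subgroup X) = R X ⊓ E := inf_comm _ _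
  have hA9 : Nat.card (E ⊓ R X : Subgroup X) = 9 := by
    rw [hcomm_inf]
    have h13 : (R X).relIndex E = 1 ∨ (R X).relIndex E = 3 := by
      have := (Nat.dvd_prime Nat.prime_three).mp hd3
      exact this
    rcases h13 with h1 | h3
    · exfalso
      rw [h1, mul_one] at hmul
      have heq : R X ⊓ E = R X := by
        apply Subgroup.eq_of_le_of_card_ge inf_le_left
        rw [hmul, h27]
      have hle : R X ≤ E := by rw [← heq]; exact inf_le_right
      exact R_not_le_abelian hX' hZ' E hEcomm hle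
    · rw [h3] at hmul
      omega
  refine ⟨?_, hA9⟩
  -- `C := C_X(A) ⊓ R` contains `A` and `Z`
  set A : Subgroup X := E ⊓ R X with hA
  set C : Subgroup X := Subgroup.centralizer (A : Set X) ⊓ R X with hC
  have hAC : A ≤ C := by
    intro a ha
    refine ⟨Subgroup.mem_centralizer_iff.mpr ?_, ha.2⟩
    intro b hb
    exact hEcomm b hb.1 a ha.1
  have hZC : Zc X ≤ C := by
    intro z hz
    refine ⟨Subgroup.mem_centralizer_iff.mpr ?_, hZR hz⟩
    intro b hb
    exact hZcent z hz b
  have hCd : Nat.card C ∣ 27 := by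
    rw [← h27]; exact Subgroup.card_dvd_of_le inf_le_right
  have hAd : 9 ∣ Nat.card C := by
    rw [← hA9]; exact Subgroup.card_dvd_of_le hAC
  have hC9 : Nat.card C = 9 ∨ Nat.card C = 27 := by
    obtain ⟨k, hk⟩ := hAd
    have hk3 : k ∣ 3 := by
      rw [hk] at hCd
      have : 9 * k ∣ 9 * 3 := by norm_num; exact hCd
      exact Nat.dvd_of_mul_dvd_mul_left (by norm_num) this
    have := (Nat.dvd_prime Nat.prime_three).mp hk3
    rcases this with h | h
    · left; rw [hk, h]
    · right; rw [hk, h]
  rcases hC9 with h9 | h27'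
  · have heq : A = C := by
      apply Subgroup.eq_of_le_of_card_ge hAC
      rw [h9, hA9]
    intro z hz
    have : z ∈ A := by rw [heq]; exact hZC hz
    exact this.1
  · exfalso
    have heq : C = R X := by
      apply Subgroup.eq_of_le_of_card_ge inf_le_right
      rw [h27', h27]
    -- every element of A commutes with R, so A ≤ Z
    have hAZ : A ≤ Zc X := by
      intro a ha
      apply hZchar a ha.2
      intro s hs
      have hsC : s ∈ C := by rw [heq]; exact hs
      have := (Subgroup.mem_centralizer_iff.mp hsC.1) a ha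
      exact this
    have := Subgroup.card_le_of_le hAZ
    rw [hZ3, hA9] at this
    omega

end Cfsg.Agent.Lib.Helper11.J3EINT
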