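import Cfsg.Agent.Lib.Helper26.J3Stmt

set_option autoImplicit false

namespace Cfsg.Agent.Lib.Helper11.J3FR1

open Cfsg.Agent.Lib.Helper26.J3Stmt

universe u

/-- `r ζ` is inverted by `t` when `ζ = r (t r t⁻¹)` is central of order dividing 3. -/
theorem inv_lemma {X : Type u} [Group X] (t r ζ : X) (hζ : ζ = r * (t * r * t⁻¹))
    (hc : ∀ x : X, x * ζ = ζ * x) (h3 : ζ ^ 3 = 1) : t * (r * ζ) * t⁻¹ = (r * ζ)⁻¹ := by
  have h1 : t * r * t⁻¹ = r⁻¹ * ζ := by rw [hζ]; group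
  have h2 : ζ * ζ = ζ⁻¹ := by
    apply eq_inv_of_mul_eq_one_left
    rw [← h3, pow_succ, pow_two]
  calc t * (r * ζ) * t⁻¹ = t * r * (ζ * t⁻¹) := by group
    _ = t * r * (t⁻¹ * ζ) := by rw [← hc t⁻¹]
    _ = (t * r * t⁻¹) * ζ := by group
    _ = r⁻¹ * (ζ * ζ) := by rw [h1]; group
    _ = r⁻¹ * ζ⁻¹ := by rw [h2]
    _ = (ζ * r)⁻¹ := by group
    _ = (r * ζ)⁻¹ := by rw [hc r]

theorem comm_lemma {X : Type u} [Group X] (r s ζ ζ' : X)
    (hc : ∀ x : X, x * ζ = ζ * x) (hc' : ∀ x : X, x * ζ' = ζ' * x)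
    (h : (r * ζ) * (s * ζ') = (s * ζ') * (r * ζ)) : r * s = s * r := by
  have e1 : (r * ζ) * (s * ζ') = r * s * (ζ * ζ') := by
    calc (r * ζ) * (s * ζ') = r * (ζ * s) * ζ' := by group
      _ = r * (s * ζ) * ζ' := by rw [hc s]
      _ = r * s * (ζ * ζ') := by group
  have e2 : (s * ζ') * (r * ζ) = s * r * (ζ * ζ') := by
    calc (s * ζ') * (r * ζ) = s * (ζ' * r) * ζ := by group
      _ = s * (r * ζ') * ζ := by rw [hc' r]
      _ = s * r * (ζ' * ζ) := by group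
      _ = s * r * (ζ * ζ') := by rw [hc ζ']
  rw [e1, e2] at h
  exact mul_right_cancel h

theorem main : Cfsg.Agent.Lib.Helper26.J3Stmt.FR1.{u} := by
  intro X _ hX hZ t hT
  obtain ⟨hfin, hES, hcard, hexp, hq, h2, hE⟩ := hX
  obtain ⟨hZ3, hZR, hZcomm, hZchar, hZcent⟩ := hZ
  obtain ⟨htt, htR, htcent, htinv⟩ := hT
  -- a noncentral element of R
  have hex : ∃ r ∈ R X, r ∉ Zc X := by
    by_contra hcon
    push_neg at hcon
    have hle : R X ≤ Zc X := hcon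
    have heq : Zc X = R X := le_antisymm hZR hle
    have : Nat.card (Zc X) = Nat.card (R X) := by rw [heq]
    rw [hZ3] at this
    have h27 : Nat.card (R X) = 27 := hcard
    omega
  obtain ⟨r, hr, hrZ⟩ := hex
  have hex2 : ∃ s ∈ R X, r * s ≠ s * r := by
    by_contra hcon
    push_neg at hcon
    exact hrZ (hZchar r hr hcon)
  obtain ⟨s, hs, hrs⟩ := hex2
  have hζ := htinv r hr
  have hζ' := htinv s hs
  have hc : ∀ x : X, x * (r * (t * r * t⁻¹)) = (r * (t * r * t⁻¹)) * x := fun x => hZcent _ hζ x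
  have hc' : ∀ x : X, x * (s * (t * s * t⁻¹)) = (s * (t * s * t⁻¹)) * x := fun x => hZcent _ hζ' x
  refine ⟨r * (r * (t * r * t⁻¹)), (R X).mul_mem hr (hZR hζ),
    s * (s * (t * s * t⁻¹)), (R X).mul_mem hs (hZR hζ'), ?_, ?_, ?_⟩
  · exact inv_lemma t r _ rfl hc (hexp _ (hZR hζ))
  · exact inv_lemma t s _ rfl hc' (hexp _ (hZR hζ'))
  · intro h
    exact hrs (comm_lemma r s _ _ hc hc' h)

end Cfsg.Agent.Lib.Helper11.J3FR1
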