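import Cfsg.Agent.Lib.Helper26.J3Stmt

set_option autoImplicit false

namespace Cfsg.Agent.Lib.Helper11.J3ZF1

open Cfsg.Agent.Lib.Helper26.J3Stmt
open scoped commutatorElement

universe u

theorem main : Cfsg.Agent.Lib.Helper26.J3Stmt.ZF1.{u} := by
  intro X _ hX
  obtain ⟨hfin, hES, hcard, hexp, hq, h2, hE⟩ := hX
  obtain ⟨⟨hp, hfr, hcomm⟩, hc3⟩ := hES
  refine ⟨?_, ?_, ?_, ?_⟩
  · unfold Zc
    rw [Subgroup.card_map_of_injective (Subgroup.subtype_injective _)]
    exact hc3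
  · unfold Zc
    exact Subgroup.map_subtype_le _
  · intro r hr s hs
    have h1 : ⁅(⟨r, hr⟩ : Cfsg.pCore 3 X), (⟨s, hs⟩ : Cfsg.pCore 3 X)⁆ ∈
        Subgroup.center (Cfsg.pCore 3 X) := by
      rw [← hcomm, commutator_def]
      exact Subgroup.commutator_mem_commutator (Subgroup.mem_top _) (Subgroup.mem_top _)
    unfold Zc
    refine ⟨_, h1, ?_⟩
    simp [commutatorElement_def]
  · intro r hr hall
    unfold Zc
    refine ⟨⟨r, hr⟩, ?_, rfl⟩
    apply Subgroup.mem_center_iff.mpr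
    rintro ⟨s, hs⟩
    apply Subtype.ext
    simp only [Subgroup.coe_mul]
    exact (hall s hs).symm

end Cfsg.Agent.Lib.Helper11.J3ZF1
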