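import Mathlib
import Cfsg.Agent.Lib.Helper11.SieveFacts
import Cfsg.Agent.Lib.Helper17.Sylow

/-!
# No simple groups of order 1584, 2640 (certificate sieve)
-/

set_option autoImplicit false

namespace Cfsg.Agent.Lib.Helper11.O1584

open Cfsg.Agent.Lib.Helper11.SieveCheck Cfsg.Agent.Lib.Helper11.SieveFacts

theorem chk1584 : check 1584 (.one 11) = true := by decide +kernel

theorem chk2640 : check 2640 (.one 11) = true := by decide +kernel

/-- Generic: a passed certificate for a non-prime, non-special order excludes simple groups. -/
theorem no_simple_of_check {G : Type*} [Group G] [Finite G] [IsSimpleGroup G] {n : ℕ} {c : Cert}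
    (h : check n c = true) (hs : n ∉ specials) (hnp : ¬ n.Prime) : Nat.card G ≠ n := by
  intro hn
  have hG : ¬ IsMulCommutative G :=
    Cfsg.Agent.Lib.Helper17.Sylow.not_comm_of_not_prime (by rw [hn]; exact hnp)
  rcases check_sound h with h' | h'
  · exact h' (hn ▸ alive_card hG)
  · exact hs h'

/-- No finite simple group has order 1584 = 2^4 * 3^2 * 11. -/
theorem no_simple {G : Type*} [Group G] [Finite G] [IsSimpleGroup G] : Nat.card G ≠ 1584 :=
  no_simple_of_check chk1584 (by decide) (by norm_num)

/-- No finite simple group has order 2640 = 2^4 * 3 * 5 * 11. -/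
theorem no_simple_2640 {G : Type*} [Group G] [Finite G] [IsSimpleGroup G] : Nat.card G ≠ 2640 :=
  no_simple_of_check chk2640 (by decide) (by norm_num)

end Cfsg.Agent.Lib.Helper11.O1584
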