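import Mathlib

/-! General lemmas for the S1158 pieces (normalizers of subgroups of cyclic subgroups). -/

set_option autoImplicit false

namespace Cfsg.Agent.Lib.Helper11.RHBasic

variable {G : Type*} [Group G]

theorem orderOf_conj' (x g : G) : orderOf (x * g * x⁻¹) = orderOf g := by
  have h : x * g * x⁻¹ = MulAut.conj x g := rfl
  rw [h, MulEquiv.orderOf_eq]

theorem mem_normalizer_of_conj_mem [Finite G] (K : Subgroup G) (g : G)
    (h : ∀ k ∈ K, g * k * g⁻¹ ∈ K) : g ∈ Subgroup.normalizer (K : Set G) := by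
  rw [Subgroup.mem_normalizer_iff_map_conj_eq]
  apply Subgroup.eq_of_le_of_card_ge
  · rintro _ ⟨k, hk, rfl⟩
    exact h k hk
  · apply le_of_eq
    exact Nat.card_congr (K.equivMapOfInjective _ (MulAut.conj g).injective).toEquiv

theorem cyclic_conj_mem [Finite G] (C A₀ : Subgroup G) [hC : IsCyclic C] (hA : A₀ ≤ C) (g : G)
    (hg : ∀ c ∈ C, g * c * g⁻¹ ∈ C) : ∀ a ∈ A₀, g * a * g⁻¹ ∈ A₀ := by
  classical
  intro a ha
  haveI : Fintype ↥C := Fintype.ofFinite _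
  have hd0 : 0 < Nat.card A₀ := Nat.card_pos
  have hle := IsCyclic.card_pow_eq_one_le (α := ↥C) hd0
  have hS : ({x : ↥C | x ^ Nat.card A₀ = 1} : Set ↥C).ncard ≤ Nat.card A₀ := by
    rw [Set.ncard_eq_toFinset_card']
    convert hle using 2
    ext x
    simp
  have hB : ((A₀.subgroupOf C : Subgroup ↥C) : Set ↥C).ncard = Nat.card A₀ := by
    rw [← Nat.card_coe_set_eq]
    exact Nat.card_congr (Subgroup.subgroupOfEquivOfLe hA).toEquiv
  have hpow : ∀ b ∈ A₀, b ^ Nat.card A₀ = 1 := by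
    intro b hb
    have h1 : (⟨b, hb⟩ : A₀) ^ Nat.card A₀ = 1 := pow_card_eq_one'
    have h2 := congrArg Subtype.val h1
    rw [Subgroup.coe_pow] at h2
    exact h2
  have hsub : ((A₀.subgroupOf C : Subgroup ↥C) : Set ↥C) ⊆ {x : ↥C | x ^ Nat.card A₀ = 1} := by
    intro x hx
    have hx' : (x : G) ∈ A₀ := hx
    show x ^ Nat.card A₀ = 1
    apply Subtype.ext
    have := hpow _ hx'
    simpa using this
  have hEq := Set.eq_of_subset_of_ncard_le hsub (hS.trans hB.ge) (Set.toFinite _)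
  have hy : (⟨g * a * g⁻¹, hg a (hA ha)⟩ : ↥C) ∈ ({x : ↥C | x ^ Nat.card A₀ = 1} : Set ↥C) := by
    show (⟨g * a * g⁻¹, hg a (hA ha)⟩ : ↥C) ^ Nat.card A₀ = 1
    apply Subtype.ext
    show (g * a * g⁻¹) ^ Nat.card A₀ = 1
    rw [conj_pow, hpow a ha]; simp
  rw [← hEq] at hy
  exact hy

theorem normalizer_cyclic_le [Finite G] (C A₀ : Subgroup G) [IsCyclic C] (hA : A₀ ≤ C) :
    Subgroup.normalizer (C : Set G) ≤ Subgroup.normalizer (A₀ : Set G) := by
  intro g hg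
  apply mem_normalizer_of_conj_mem
  apply cyclic_conj_mem C A₀ hA g
  intro c hc
  exact (Subgroup.mem_normalizer_iff.mp hg c).mp hc

/-- if the centralizer of every nonidentity element of `A₀` is `D`, then `N(A₀) ≤ N(D)` -/
theorem normalizer_le_of_cent [Finite G] (D A₀ : Subgroup G) (hne : A₀ ≠ ⊥)
    (hcent : ∀ y ∈ A₀, y ≠ 1 → Subgroup.centralizer ({y} : Set G) = D) :
    Subgroup.normalizer (A₀ : Set G) ≤ Subgroup.normalizer (D : Set G) := by
  intro g hg
  obtain ⟨y, hy, hy1⟩ := (Subgroup.ne_bot_iff_exists_ne_one.mp hne : ∃ a : A₀, a ≠ 1)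
    |> fun ⟨a, ha⟩ => (⟨(a : G), a.2, fun h => ha (Subtype.ext h)⟩ : ∃ y : G, y ∈ A₀ ∧ y ≠ 1)
  have hy' : g * y * g⁻¹ ∈ A₀ := (Subgroup.mem_normalizer_iff.mp hg y).mp hy
  have hy'1 : g * y * g⁻¹ ≠ 1 := by
    intro h
    apply hy1
    have : y = g⁻¹ * (g * y * g⁻¹) * g := by group
    rw [this, h]; group
  apply mem_normalizer_of_conj_mem
  intro d hd
  rw [← hcent y hy hy1] at hd
  rw [← hcent _ hy' hy'1]
  rw [Subgroup.mem_centralizer_iff] at hd ⊢
  intro h hh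
  rw [Set.mem_singleton_iff] at hh
  have h1 := hd y (Set.mem_singleton y)
  rw [hh]
  calc g * y * g⁻¹ * (g * d * g⁻¹) = g * (y * d) * g⁻¹ := by group
    _ = g * (d * y) * g⁻¹ := by rw [h1]
    _ = g * d * g⁻¹ * (g * y * g⁻¹) := by group

end Cfsg.Agent.Lib.Helper11.RHBasic
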