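import Mathlib
import Cfsg.Agent.Lib.Helper18.ReeHallStmt
import Cfsg.Agent.Lib.Helper7.ReeSpTICount

set_option autoImplicit false

universe u v

namespace Cfsg.Agent.Lib.Helper11.RHCNT

open Cfsg.Agent.Lib.Helper42.ReeSpStmt

theorem main : Cfsg.Agent.Lib.Helper18.ReeHallStmt.Cnt.{u} := by
  intro G _ _ T P hinv hfus hcov
  have key := Cfsg.Agent.Lib.Helper7.ReeSpTICount.ti_count (G := G)
    ({y : G | y ∈ T ∧ P y}) (Subgroup.normalizer (T : Set G))
    (by
      intro g hg s hs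
      exact ⟨(Subgroup.mem_normalizer_iff.mp hg s).mp hs.1, hinv s g hs.2⟩)
    (by
      intro g s hs hgs
      exact hfus g s hs.1 hs.2 hgs.1)
  have e1 : Nat.card {y : G // ∃ x : G, x * y * x⁻¹ ∈ ({y : G | y ∈ T ∧ P y} : Set G)}
      = Nat.card {g : G // P g} := by
    apply Nat.card_congr
    apply Equiv.subtypeEquivRight
    intro y
    constructor
    · rintro ⟨x, hx⟩
      have h2 := hinv _ x⁻¹ hx.2
      have e : x⁻¹ * (x * y * x⁻¹) * x⁻¹⁻¹ = y := by group
      rwa [e] at h2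
    · intro hy
      obtain ⟨x, hx⟩ := hcov y hy
      exact ⟨x, hx, hinv y x hy⟩
  have e2 : Nat.card ↥({y : G | y ∈ T ∧ P y} : Set G) = Nat.card {y : ↥T // P (y : G)} := by
    apply Nat.card_congr
    exact (Equiv.subtypeSubtypeEquivSubtypeInter (fun y : G => y ∈ T) P).symm
  rw [e1, e2] at key
  rw [key, mul_comm]

end Cfsg.Agent.Lib.Helper11.RHCNT
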