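import Mathlib
import Cfsg.Agent.Lib.Helper18.ReeHallStmt
import Cfsg.Agent.Lib.Helper11.RHBasic

set_option autoImplicit false

universe u v

namespace Cfsg.Agent.Lib.Helper11.RHK3

open Cfsg.Agent.Lib.Helper42.ReeSpStmt Cfsg.Agent.Lib.Helper11.RHBasic

theorem main : Cfsg.Agent.Lib.Helper18.ReeHallStmt.K3.{u, v} := by
  intro G _ _ U H A K _ _ m hax hcnt hsyl hU3
  obtain ⟨hNU, -, hcov⟩ := hsyl
  have key := hcnt G U (fun g => orderOf g = 3)
    (by
      intro g x hg
      show orderOf (x * g * x⁻¹) = 3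
      rw [orderOf_conj']; exact hg)
    (by
      intro g y hy hy3 hgy
      apply mem_normalizer_of_conj_mem
      apply hax.ti g
      refine ⟨y, hy, ?_, hgy⟩
      intro h1
      rw [h1, orderOf_one] at hy3
      omega)
    (by
      intro g hg
      apply hcov g
      refine ⟨1, ?_⟩
      rw [pow_one, ← hg]
      exact pow_orderOf_eq_one g)
  have e : Nat.card {y : ↥U // orderOf (y : G) = 3} = Nat.card {u : ↥U // orderOf u = 3} := by
    apply Nat.card_congr
    apply Equiv.subtypeEquivRight
    intro y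
    rw [Subgroup.orderOf_coe]
  rw [e, hU3, hNU, hax.card] at key
  have hq : 3 ≤ qq m := by
    have : 3 ^ 1 ≤ 3 ^ (2 * m + 1) := Nat.pow_le_pow_right (by norm_num) (by omega)
    simpa using this
  have hpos : 0 < qq m ^ 3 * (qq m - 1) := by
    apply Nat.mul_pos
    · exact pow_pos (by omega) 3
    · omega
  apply Nat.eq_of_mul_eq_mul_right hpos
  rw [key]
  ring

end Cfsg.Agent.Lib.Helper11.RHK3
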