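import Mathlib
import Cfsg.Agent.Lib.Helper18.ReeHallStmt

set_option autoImplicit false

universe u v

namespace Cfsg.Agent.Lib.Helper11.RHK9

open Cfsg.Agent.Lib.Helper42.ReeSpStmt

theorem main : Cfsg.Agent.Lib.Helper18.ReeHallStmt.K9.{u} := by
  intro G _ _ m hC3 h3
  unfold C3C at hC3
  -- the set decomposition
  have hset : {g : G | g ≠ 1 ∧ g ^ 9 = 1} = {g : G | orderOf g = 3} ∪ {g : G | orderOf g = 9} := by
    ext g
    simp only [Set.mem_setOf_eq, Set.mem_union]
    constructor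
    · rintro ⟨h1, h9⟩
      have hdvd : orderOf g ∣ 3 ^ 2 := by
        have := orderOf_dvd_of_pow_eq_one h9
        simpa using this
      obtain ⟨k, hk, hk'⟩ := (Nat.dvd_prime_pow Nat.prime_three).mp hdvd
      interval_cases k
      · exfalso
        apply h1
        rw [← orderOf_eq_one_iff]; simpa using hk'
      · left; simpa using hk'
      · right; simpa using hk'
    · rintro (h | h)
      · refine ⟨?_, ?_⟩
        · intro h1
          rw [h1, orderOf_one] at h
          omega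
        · have : g ^ 3 = 1 := by rw [← h]; exact pow_orderOf_eq_one g
          calc g ^ 9 = (g ^ 3) ^ 3 := by rw [← pow_mul]
            _ = 1 := by rw [this, one_pow]
      · refine ⟨?_, ?_⟩
        · intro h1
          rw [h1, orderOf_one] at h
          omega
        · rw [← h]; exact pow_orderOf_eq_one g
  have hdisj : Disjoint {g : G | orderOf g = 3} {g : G | orderOf g = 9} := by
    rw [Set.disjoint_left]
    intro g h3' h9'
    simp only [Set.mem_setOf_eq] at h3' h9'
    omega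
  have hcount : Nat.card {g : G // g ≠ 1 ∧ g ^ 9 = 1}
      = Nat.card {g : G // orderOf g = 3} + Nat.card {g : G // orderOf g = 9} := by
    have e1 : Nat.card {g : G // g ≠ 1 ∧ g ^ 9 = 1} = ({g : G | g ≠ 1 ∧ g ^ 9 = 1}).ncard :=
      Nat.card_coe_set_eq _
    have e2 : Nat.card {g : G // orderOf g = 3} = ({g : G | orderOf g = 3}).ncard :=
      Nat.card_coe_set_eq _
    have e3 : Nat.card {g : G // orderOf g = 9} = ({g : G | orderOf g = 9}).ncard :=
      Nat.card_coe_set_eq _
    rw [e1, e2, e3, hset]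
    exact Set.ncard_union_eq hdisj (Set.toFinite _) (Set.toFinite _)
  rw [hcount, h3] at hC3
  -- arithmetic
  have hq1 : 1 ≤ qq m := Nat.one_le_pow _ _ (by norm_num)
  obtain ⟨c, hc⟩ : ∃ c, qq m = c + 1 := ⟨qq m - 1, by omega⟩
  have ha : qq m ^ 3 - 1 = (qq m ^ 2 - 1) + qq m ^ 2 * (qq m - 1) := by
    rw [hc]
    have e1 : (c + 1) ^ 3 - 1 = c ^ 3 + 3 * c ^ 2 + 3 * c := by
      have : (c + 1) ^ 3 = c ^ 3 + 3 * c ^ 2 + 3 * c + 1 := by ring
      omega
    have e2 : (c + 1) ^ 2 - 1 = c ^ 2 + 2 * c := by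
      have : (c + 1) ^ 2 = c ^ 2 + 2 * c + 1 := by ring
      omega
    rw [e1, e2, Nat.add_sub_cancel]
    ring
  rw [ha] at hC3
  have hexp : (qq m ^ 3 + 1) * (qq m ^ 2 - 1 + qq m ^ 2 * (qq m - 1))
      = (qq m ^ 2 - 1) * (qq m ^ 3 + 1) + qq m ^ 2 * (qq m - 1) * (qq m ^ 3 + 1) := by ring
  rw [hexp] at hC3
  exact Nat.add_left_cancel hC3

end Cfsg.Agent.Lib.Helper11.RHK9
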