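import Cfsg.Agent.Lib.Helper42.ReeDegStmt

set_option autoImplicit false

namespace Cfsg.Agent.Lib.Helper11.ReeDegEIG

universe u

theorem main : Cfsg.Agent.Lib.Helper42.ReeDegStmt.EigP.{u} := by
  intro G _ _ A hA k ρ z hz hρz
  classical
  set N : (Fin k → ℂ) →ₗ[ℂ] (Fin k → ℂ) := ρ z with hN
  have hn : 0 < orderOf z := orderOf_pos z
  have hNn : N ^ orderOf z = 1 := by
    rw [hN, ← map_pow, pow_orderOf_eq_one, map_one]
  have hcomm : ∀ a ∈ A, ∀ b ∈ A, ∀ v, ρ a (ρ b v) = ρ b (ρ a v) := by
    intro a ha b hb v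
    have : ρ (a * b) = ρ (b * a) := by rw [hA a ha b hb]
    rw [map_mul, map_mul] at this
    exact congrArg (fun f => f v) this
  set W₀ : Submodule ℂ (Fin k → ℂ) := LinearMap.range (N - 1) with hW₀
  have hW₀ne : W₀ ≠ ⊥ := by
    intro h
    apply hρz
    rw [hW₀, LinearMap.range_eq_bot] at h
    exact sub_eq_zero.mp h
  have hW₀inv : ∀ a ∈ A, ∀ w ∈ W₀, ρ a w ∈ W₀ := by
    rintro a ha _ ⟨v, rfl⟩
    refine ⟨ρ a v, ?_⟩
    simp only [LinearMap.sub_apply, Module.End.one_apply, map_sub]
    rw [hN, hcomm z hz a ha]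
  have key : ∀ s : Finset G, ∃ W : Submodule ℂ (Fin k → ℂ), W ≤ W₀ ∧ W ≠ ⊥ ∧
      (∀ a ∈ A, ∀ w ∈ W, ρ a w ∈ W) ∧
      (∀ a ∈ s, a ∈ A → ∃ c : ℂ, ∀ w ∈ W, ρ a w = c • w) := by
    intro s
    induction s using Finset.induction_on with
    | empty => exact ⟨W₀, le_rfl, hW₀ne, hW₀inv, by simp⟩
    | insert b s hb ih =>
      obtain ⟨W, hWle, hWne, hWinv, hWsc⟩ := ih
      by_cases hbA : b ∈ A
      · have : Nontrivial W := (Submodule.nontrivial_iff_ne_bot).mpr hWne
        let g : W →ₗ[ℂ] W := (ρ b).restrict (hWinv b hbA)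
        obtain ⟨c, hc⟩ := Module.End.exists_eigenvalue g
        obtain ⟨v, hv⟩ := hc.exists_hasEigenvector
        have hv1 : g v = c • v := hv.apply_eq_smul
        have hv2 : v ≠ 0 := hv.2
        have hker : ∀ w : Fin k → ℂ, w ∈ LinearMap.ker (ρ b - c • LinearMap.id) ↔
            ρ b w = c • w := by
          intro w
          rw [LinearMap.mem_ker, LinearMap.sub_apply, LinearMap.smul_apply, LinearMap.id_apply,
            sub_eq_zero]
        refine ⟨W ⊓ LinearMap.ker (ρ b - c • LinearMap.id), inf_le_left.trans hWle, ?_, ?_, ?_⟩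
        · intro h
          apply hv2
          have hmem : (v : Fin k → ℂ) ∈ W ⊓ LinearMap.ker (ρ b - c • LinearMap.id) := by
            refine ⟨v.2, (hker _).2 ?_⟩
            have := congrArg Subtype.val hv1
            simpa [g] using this
          rw [h, Submodule.mem_bot] at hmem
          exact Subtype.ext hmem
        · intro a ha w hw
          have hw2 := (hker w).1 hw.2
          refine ⟨hWinv a ha w hw.1, (hker _).2 ?_⟩
          rw [hcomm b hbA a ha, hw2, map_smul]
        · intro a ha haA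
          rcases Finset.mem_insert.mp ha with rfl | has
          · exact ⟨c, fun w hw => (hker w).1 hw.2⟩
          · obtain ⟨c', hc'⟩ := hWsc a has haA
            exact ⟨c', fun w hw => hc' w hw.1⟩
      · refine ⟨W, hWle, hWne, hWinv, ?_⟩
        intro a ha haA
        rcases Finset.mem_insert.mp ha with rfl | has
        · exact absurd haA hbA
        · exact hWsc a has haA
  haveI : Fintype G := Fintype.ofFinite G
  obtain ⟨W, hWle, hWne, hWinv, hWsc⟩ := key Finset.univ
  obtain ⟨w, hwW, hw0⟩ := (Submodule.ne_bot_iff W).mp hWne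
  have hsc : ∀ a : G, ∃ c : ℂ, a ∈ A → ∀ w ∈ W, ρ a w = c • w := by
    intro a
    by_cases ha : a ∈ A
    · obtain ⟨c, hc⟩ := hWsc a (Finset.mem_univ a) ha
      exact ⟨c, fun _ => hc⟩
    · exact ⟨0, fun h => absurd h ha⟩
  choose μ hμ using hsc
  refine ⟨μ, w, hw0, fun a ha => hμ a ha w hwW, ?_⟩
  intro hμz
  have h1 : N w = w := by
    have := hμ z hz w hwW
    rw [hμz, one_smul] at this
    exact this
  obtain ⟨v, hv⟩ := hWle hwW
  have h2 : N v = v + w := by
    have : N v - v = w := by simpa using hv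
    rw [← this]; abel
  have h3 : ∀ j : ℕ, (N ^ j) v = v + (j : ℂ) • w := by
    intro j
    induction j with
    | zero => simp
    | succ j ih =>
      rw [pow_succ', Module.End.mul_apply, ih, map_add, map_smul, h2, h1]
      push_cast
      rw [add_smul, one_smul]; abel
  have h4 := h3 (orderOf z)
  rw [hNn, Module.End.one_apply] at h4
  have h5 : ((orderOf z : ℕ) : ℂ) • w = 0 := by
    have : v + 0 = v + ((orderOf z : ℕ) : ℂ) • w := by rw [add_zero]; exact h4
    exact (add_left_cancel this).symm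
  rcases smul_eq_zero.mp h5 with h | h
  · exact absurd (by exact_mod_cast h) hn.ne'
  · exact hw0 h

end Cfsg.Agent.Lib.Helper11.ReeDegEIG
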