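import Mathlib
import Cfsg.Agent.Lib.Helper96.SylAltBasic

set_option autoImplicit false

/-! Piece [CARD] of S2221 (helper96 call): the transpositions of a maximal 2-subgroup of
`Perm Ω` form a matching missing at most one point, so there are `card Ω / 2` of them. -/

namespace Cfsg.Agent.Lib.Helper11.SACARD

open Equiv Cfsg.Agent.Lib.Lead.SylTwoSym Cfsg.Agent.Lib.Helper96.SylAltStmt
  Cfsg.Agent.Lib.Helper96.SylAltBasic

theorem main : Cfsg.Agent.Lib.Helper96.SylAltStmt.CARD := by
  classical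
  intro Ω _ _ S hS
  let Tf : Finset (Perm Ω) := Finset.univ.filter (fun τ => τ ∈ swapsIn S)
  have hTf : ∀ τ, τ ∈ Tf ↔ τ ∈ swapsIn S := by
    intro τ; simp [Tf]
  have hcardT : Nat.card ↥(swapsIn S) = Tf.card := Nat.subtype_card Tf hTf
  let C : Finset Ω := Tf.biUnion (fun τ => τ.support)
  have hC : C.card = 2 * Tf.card := by
    have h1 : C.card = ∑ τ ∈ Tf, (τ.support).card := by
      apply Finset.card_biUnion
      intro τ₁ h1 τ₂ h2 hne
      exact (disjoint_of_ne hS.1 ((hTf _).1 h1) ((hTf _).1 h2) hne).disjoint_support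
    rw [h1]
    have h2 : ∀ τ ∈ Tf, (τ.support).card = 2 := by
      intro τ hτ
      exact Equiv.Perm.card_support_eq_two.mpr ((hTf _).1 hτ).2
    rw [Finset.sum_congr rfl h2]
    simp [mul_comm]
  have hCc : Cᶜ.card ≤ 1 := by
    rw [Finset.card_le_one]
    intro a ha b hb
    by_contra hab
    have ha' : ∀ τ ∈ swapsIn S, τ a = a := by
      intro τ hτ
      by_contra hne
      apply (Finset.mem_compl.1 ha)
      exact Finset.mem_biUnion.2 ⟨τ, (hTf _).2 hτ, Equiv.Perm.mem_support.2 hne⟩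
    have hb' : ∀ τ ∈ swapsIn S, τ b = b := by
      intro τ hτ
      by_contra hne
      apply (Finset.mem_compl.1 hb)
      exact Finset.mem_biUnion.2 ⟨τ, (hTf _).2 hτ, Equiv.Perm.mem_support.2 hne⟩
    exact covered_of_max2 hS hab ha' hb'
  have hsum : C.card + Cᶜ.card = Fintype.card Ω := Finset.card_add_card_compl C
  refine ⟨by rw [hcardT]; omega, ?_⟩
  intro hev a
  have h0 : Cᶜ.card = 0 := by
    obtain ⟨m, hm⟩ := hev
    omega
  have hCu : Cᶜ = ∅ := Finset.card_eq_zero.1 h0
  have ha : a ∈ C := by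
    by_contra h
    have : a ∈ Cᶜ := Finset.mem_compl.2 h
    rw [hCu] at this
    exact absurd this (Finset.notMem_empty a)
  obtain ⟨τ, hτ, hmem⟩ := Finset.mem_biUnion.1 ha
  exact ⟨τ, (hTf _).1 hτ, Equiv.Perm.mem_support.1 hmem⟩

end Cfsg.Agent.Lib.Helper11.SACARD
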