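import Mathlib
import Cfsg.Agent.Lib.Helper96.SylAltBasic

set_option autoImplicit false
set_option linter.unusedSectionVars false

/-! Piece [SPLIT] of S2221 (helper96 call): every element of a maximal 2-subgroup `S` of
`Perm Ω` splits along an `S`-invariant set `U` as `u * v` with `u, v ∈ S`, `u` supported in `U`
and `v` fixing `U` pointwise. -/

namespace Cfsg.Agent.Lib.Helper11.SASPLIT

open Equiv Cfsg.Agent.Lib.Lead.SylTwoSym Cfsg.Agent.Lib.Helper96.SylAltStmt
  Cfsg.Agent.Lib.Helper96.SylAltBasic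

section

variable {Ω : Type} [DecidableEq Ω] [Fintype Ω]

open Classical in
/-- restriction of `x` to the invariant set `U`, extended by the identity -/
noncomputable def res (U : Set Ω) (x : Perm Ω) (h1 : ∀ a ∈ U, x a ∈ U)
    (h2 : ∀ a ∈ U, x⁻¹ a ∈ U) : Perm Ω where
  toFun a := if a ∈ U then x a else a
  invFun a := if a ∈ U then x⁻¹ a else a
  left_inv a := by
    by_cases ha : a ∈ U
    · have h := h1 a ha
      show (if (if a ∈ U then x a else a) ∈ U then x⁻¹ (if a ∈ U then x a else a)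
        else (if a ∈ U then x a else a)) = a
      rw [if_pos ha, if_pos h]; simp
    · show (if (if a ∈ U then x a else a) ∈ U then x⁻¹ (if a ∈ U then x a else a)
        else (if a ∈ U then x a else a)) = a
      rw [if_neg ha, if_neg ha]
  right_inv a := by
    by_cases ha : a ∈ U
    · have h := h2 a ha
      show (if (if a ∈ U then x⁻¹ a else a) ∈ U then x (if a ∈ U then x⁻¹ a else a)
        else (if a ∈ U then x⁻¹ a else a)) = a
      rw [if_pos ha, if_pos h]; simp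
    · show (if (if a ∈ U then x⁻¹ a else a) ∈ U then x (if a ∈ U then x⁻¹ a else a)
        else (if a ∈ U then x⁻¹ a else a)) = a
      rw [if_neg ha, if_neg ha]

theorem res_apply_mem (U : Set Ω) (x : Perm Ω) (h1 : ∀ a ∈ U, x a ∈ U)
    (h2 : ∀ a ∈ U, x⁻¹ a ∈ U) {a : Ω} (ha : a ∈ U) : res U x h1 h2 a = x a := by
  simp [res, ha]

theorem res_apply_not_mem (U : Set Ω) (x : Perm Ω) (h1 : ∀ a ∈ U, x a ∈ U)
    (h2 : ∀ a ∈ U, x⁻¹ a ∈ U) {a : Ω} (ha : a ∉ U) : res U x h1 h2 a = a := by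
  simp [res, ha]

theorem res_one (U : Set Ω) (h1 : ∀ a ∈ U, (1 : Perm Ω) a ∈ U)
    (h2 : ∀ a ∈ U, (1 : Perm Ω)⁻¹ a ∈ U) : res U 1 h1 h2 = 1 := by
  ext a
  by_cases ha : a ∈ U
  · rw [res_apply_mem U 1 h1 h2 ha]
  · rw [res_apply_not_mem U 1 h1 h2 ha]; rfl

theorem res_mul (U : Set Ω) (x y : Perm Ω) (h1 : ∀ a ∈ U, x a ∈ U)
    (h2 : ∀ a ∈ U, x⁻¹ a ∈ U) (h3 : ∀ a ∈ U, y a ∈ U)
    (h4 : ∀ a ∈ U, y⁻¹ a ∈ U) (h5 : ∀ a ∈ U, (x * y) a ∈ U)
    (h6 : ∀ a ∈ U, (x * y)⁻¹ a ∈ U) :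
    res U (x * y) h5 h6 = res U x h1 h2 * res U y h3 h4 := by
  ext a
  by_cases ha : a ∈ U
  · have e1 : (res U x h1 h2 * res U y h3 h4) a = res U x h1 h2 (res U y h3 h4 a) := rfl
    rw [e1, res_apply_mem U (x * y) h5 h6 ha, res_apply_mem U y h3 h4 ha,
      res_apply_mem U x h1 h2 (h3 a ha)]
    rfl
  · have e1 : (res U x h1 h2 * res U y h3 h4) a = res U x h1 h2 (res U y h3 h4 a) := rfl
    rw [e1, res_apply_not_mem U (x * y) h5 h6 ha, res_apply_not_mem U y h3 h4 ha,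
      res_apply_not_mem U x h1 h2 ha]

/-- the restriction homomorphism on `S` -/
noncomputable def resHom (S : Subgroup (Perm Ω)) (U : Set Ω) (hU : Inv S U) : ↥S →* Perm Ω where
  toFun s := res U (s : Perm Ω) (fun a ha => hU s s.2 a ha)
    (fun a ha => hU _ (S.inv_mem s.2) a ha)
  map_one' := res_one U _ _
  map_mul' s t := res_mul U (s : Perm Ω) (t : Perm Ω) _ _ _ _ _ _

theorem resHom_apply_mem (S : Subgroup (Perm Ω)) (U : Set Ω) (hU : Inv S U) (s : ↥S) {a : Ω}
    (ha : a ∈ U) : resHom S U hU s a = (s : Perm Ω) a :=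
  res_apply_mem U (s : Perm Ω) (fun a ha => hU s s.2 a ha)
    (fun a ha => hU _ (S.inv_mem s.2) a ha) ha

theorem resHom_apply_not_mem (S : Subgroup (Perm Ω)) (U : Set Ω) (hU : Inv S U) (s : ↥S) {a : Ω}
    (ha : a ∉ U) : resHom S U hU s a = a :=
  res_apply_not_mem U (s : Perm Ω) (fun a ha => hU s s.2 a ha)
    (fun a ha => hU _ (S.inv_mem s.2) a ha) ha

end

theorem main : Cfsg.Agent.Lib.Helper96.SylAltStmt.SPLIT := by
  intro Ω _ _ S hS U hU x hx
  let f := resHom S U hU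
  have hR : IsPGroup 2 f.range := hS.1.of_surjective f.rangeRestrict f.rangeRestrict_surjective
  -- `S` normalizes the range
  have hnorm : S ≤ Subgroup.normalizer (f.range : Set (Perm Ω)) := by
    intro s hs
    rw [Subgroup.mem_normalizer_iff]
    have key : ∀ (t : Perm Ω) (ht : t ∈ S) (y : ↥S), t * f y * t⁻¹ ∈ f.range := by
      intro t ht y
      refine ⟨⟨t, ht⟩ * y * ⟨t, ht⟩⁻¹, ?_⟩
      ext a
      have hinv : ∀ b, b ∈ U ↔ t⁻¹ b ∈ U := by
        intro b
        constructor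
        · intro hb; exact hU _ (S.inv_mem ht) b hb
        · intro hb
          have := hU t ht _ hb
          simpa using this
      by_cases ha : a ∈ U
      · have ha' : t⁻¹ a ∈ U := (hinv a).1 ha
        rw [resHom_apply_mem S U hU _ ha, Perm.mul_apply, Perm.mul_apply,
          resHom_apply_mem S U hU _ ha']
        rfl
      · have ha' : t⁻¹ a ∉ U := fun h => ha ((hinv a).2 h)
        rw [resHom_apply_not_mem S U hU _ ha, Perm.mul_apply, Perm.mul_apply,
          resHom_apply_not_mem S U hU _ ha']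
        simp
    intro h
    constructor
    · rintro ⟨y, rfl⟩
      exact key s hs y
    · intro hh
      obtain ⟨y, hy⟩ := hh
      have h3 := key s⁻¹ (S.inv_mem hs) y
      rw [hy] at h3
      have e : s⁻¹ * (s * h * s⁻¹) * s⁻¹⁻¹ = h := by group
      rw [e] at h3
      exact h3
  have hsup : IsPGroup 2 (S ⊔ f.range : Subgroup (Perm Ω)) :=
    IsPGroup.to_sup_of_normal_right' hS.1 hR hnorm
  have heq : S ⊔ f.range = S := hS.2 _ hsup le_sup_left
  have hRS : f.range ≤ S := le_sup_right.trans heq.le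
  have hu : f ⟨x, hx⟩ ∈ S := hRS ⟨⟨x, hx⟩, rfl⟩
  refine ⟨f ⟨x, hx⟩, hu, (f ⟨x, hx⟩)⁻¹ * x, S.mul_mem (S.inv_mem hu) hx, ?_, ?_, by group⟩
  · intro a ha
    exact resHom_apply_not_mem S U hU _ ha
  · intro a ha
    rw [Perm.mul_apply, Perm.inv_eq_iff_eq]
    exact (resHom_apply_mem S U hU ⟨x, hx⟩ ha).symm

end Cfsg.Agent.Lib.Helper11.SASPLIT
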