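import Mathlib
import Cfsg.Agent.Lib.Helper12.SNStmt


set_option autoImplicit false

universe u

namespace Cfsg.Agent.Lib.Helper11.SNB2AB

open Cfsg.Agent.Lib.Helper12.SNDef Cfsg.Agent.Lib.Helper12.SNStmt

theorem main : Cfsg.Agent.Lib.Helper12.SNStmt.B2Ab.{u} := by
  intro L _ _ hexp T hT
  have hexp2 : ∀ a ∈ T, a ^ 2 = 1 := by
    by_cases hTb : T = ⊥
    · intro a ha
      rw [hTb, Subgroup.mem_bot] at ha
      rw [ha]; simp
    · haveI : Fact (Nat.Prime 2) := ⟨Nat.prime_two⟩
      have : Nontrivial ↥T := (Subgroup.nontrivial_iff_ne_bot T).mpr hTb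
      have hc : Nontrivial (Subgroup.center ↥T) := hT.center_nontrivial
      have hZp : IsPGroup 2 (Subgroup.center ↥T) := hT.to_subgroup _
      obtain ⟨n, hn⟩ := IsPGroup.iff_card.mp hZp
      have hn0 : n ≠ 0 := by
        rintro rfl
        rw [pow_zero] at hn
        have : Subsingleton (Subgroup.center ↥T) := (Nat.card_eq_one_iff_unique.mp hn).1
        exact not_subsingleton _ this
      have hdvd : 2 ∣ Nat.card (Subgroup.center ↥T) := by rw [hn]; exact dvd_pow_self 2 hn0
      obtain ⟨z, hz⟩ := exists_prime_orderOf_dvd_card' 2 hdvd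
      have hzL : orderOf (((z : ↥T) : L)) = 2 := by
        rw [Subgroup.orderOf_coe, Subgroup.orderOf_coe]; exact hz
      have hz1 : (((z : ↥T) : L)) ≠ 1 := by
        intro h
        rw [h, orderOf_one] at hzL
        omega
      have hz2 : (((z : ↥T) : L)) ^ 2 = 1 := by
        rw [← hzL]; exact pow_orderOf_eq_one _
      intro a ha
      have hcomm : Commute (((z : ↥T) : L)) a := by
        have := (Subgroup.mem_center_iff.mp z.2) ⟨a, ha⟩
        exact (congrArg Subtype.val this).symm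
      exact hexp _ a hz1 hz2 hcomm
  refine ⟨hexp2, ⟨⟨fun a b => ?_⟩⟩⟩
  apply Subtype.ext
  have ha := hexp2 a a.2
  have hb := hexp2 b b.2
  have hab := hexp2 (a * b) (T.mul_mem a.2 b.2)
  show (a : L) * b = b * a
  have h1 : (a : L) * b * ((a : L) * b) = 1 := by rw [← pow_two]; exact hab
  have ha' : (a : L) * a = 1 := by rw [← pow_two]; exact ha
  have hb' : (b : L) * b = 1 := by rw [← pow_two]; exact hb
  have e1 : (a : L)⁻¹ = a := inv_eq_of_mul_eq_one_left ha'
  have e2 : (b : L)⁻¹ = b := inv_eq_of_mul_eq_one_left hb'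
  have e3 : ((a : L) * b)⁻¹ = a * b := inv_eq_of_mul_eq_one_left h1
  rw [← e3, mul_inv_rev, e1, e2]

end Cfsg.Agent.Lib.Helper11.SNB2AB
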