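import Mathlib
import Cfsg.Agent.Lib.Helper12.SNStmt


set_option autoImplicit false

universe u

namespace Cfsg.Agent.Lib.Helper11.SNBNSUB

open Cfsg.Agent.Lib.Helper12.SNDef Cfsg.Agent.Lib.Helper12.SNStmt

theorem main : Cfsg.Agent.Lib.Helper12.SNStmt.BNSub.{u} := by
  intro X _ _ Q hQ u hu
  haveI : Fact (Nat.Prime 2) := ⟨Nat.prime_two⟩
  have hpg : IsPGroup 2 (Subgroup.zpowers u) := by
    rintro ⟨y, hy⟩
    obtain ⟨i, rfl⟩ := Subgroup.mem_zpowers_iff.mp hy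
    refine ⟨1, ?_⟩
    apply Subtype.ext
    show (u ^ i) ^ (2 ^ 1) = 1
    rw [pow_one, ← zpow_natCast, ← zpow_mul, mul_comm, zpow_mul, zpow_natCast, hu, one_zpow]
  obtain ⟨P, hP⟩ := hpg.exists_le_sylow
  have huniq := Sylow.unique_of_normal Q hQ
  have hPQ : P = Q := Subsingleton.elim _ _
  rw [← hPQ]
  exact hP (Subgroup.mem_zpowers u)

end Cfsg.Agent.Lib.Helper11.SNBNSUB
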