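import Mathlib
import Cfsg.Agent.Lib.Helper12.SNStmt


set_option autoImplicit false

universe u

namespace Cfsg.Agent.Lib.Helper11.SNCANILP

open Cfsg.Agent.Lib.Helper12.SNDef Cfsg.Agent.Lib.Helper12.SNStmt

theorem main : Cfsg.Agent.Lib.Helper12.SNStmt.CANilp.{u} := by
  intro G _ _ hsyl K hK
  obtain ⟨r, k, hr, hk, hrk⟩ := (isPrimePow_nat_iff _).mp hK
  haveI : Fact r.Prime := ⟨hr⟩
  have hpg : IsPGroup r K := IsPGroup.of_card hrk.symm
  obtain ⟨P, hP⟩ := hpg.exists_le_sylow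
  have hc := hsyl r P
  refine ⟨⟨fun a b => ?_⟩⟩
  have h1 := hc.is_comm.comm (⟨a, hP a.2⟩ : (P : Subgroup G)) ⟨b, hP b.2⟩
  have h2 : (a : G) * (b : G) = (b : G) * (a : G) := congrArg Subtype.val h1
  apply Subtype.ext
  exact h2

end Cfsg.Agent.Lib.Helper11.SNCANILP
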