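import Mathlib
import Cfsg.Agent.Lib.Helper12.SNStmt


set_option autoImplicit false

universe u

namespace Cfsg.Agent.Lib.Helper11.SNCASIMPLE

open Cfsg.Agent.Lib.Helper12.SNDef Cfsg.Agent.Lib.Helper12.SNStmt

theorem main : Cfsg.Agent.Lib.Helper12.SNStmt.CASimple.{u} := by
  intro X _ _ z hz hz1
  have hc : Subgroup.center X = ⊤ := by
    rcases IsSimpleGroup.eq_bot_or_eq_top_of_normal (Subgroup.center X) inferInstance with h | h
    · exfalso
      rw [h, Subgroup.mem_bot] at hz
      exact hz1 hz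
    · exact h
  refine ⟨⟨fun a b => ?_⟩⟩
  have hb : b ∈ Subgroup.center X := by rw [hc]; exact Subgroup.mem_top b
  exact (Subgroup.mem_center_iff.mp hb a)

end Cfsg.Agent.Lib.Helper11.SNCASIMPLE
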