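import Mathlib
import Cfsg.Agent.Lib.Helper12.SNStmt
import Cfsg.Agent.S4075

set_option autoImplicit false

universe u

namespace Cfsg.Agent.Lib.Helper11.SNS2NILP

open Cfsg.Agent.Lib.Helper12.SNDef Cfsg.Agent.Lib.Helper12.SNStmt

theorem main : Cfsg.Agent.Lib.Helper12.SNStmt.S2Nilp.{u} := by
  intro X _ _ _ hS p _ Q hQ g hgo
  have hp : p.Prime := Fact.out
  rcases (Cfsg.Agent.S4075.result (G := X)).mp hS with hc | ⟨hpp, -, -⟩
  · rw [Subgroup.mem_centralizer_iff]
    intro q _
    exact hc.is_comm.comm q g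
  · obtain ⟨r, k, hr, hk, hrk⟩ := (isPrimePow_nat_iff _).mp hpp
    by_cases hQb : Q = ⊥
    · rw [Subgroup.mem_centralizer_iff]
      intro q hq
      have hq' : q ∈ Q := hq
      rw [hQb, Subgroup.mem_bot] at hq'
      rw [hq']; simp
    · -- `p = r`
      obtain ⟨n, hn⟩ := IsPGroup.iff_card.mp hQ
      have hn0 : n ≠ 0 := by
        rintro rfl
        rw [pow_zero] at hn
        exact hQb (Subgroup.card_eq_one.mp hn)
      have hpdvd : p ∣ Nat.card X := by
        have h1 : p ∣ Nat.card Q := by rw [hn]; exact dvd_pow_self p hn0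
        exact h1.trans (Subgroup.card_subgroup_dvd_card Q)
      rw [← hrk] at hpdvd
      have hpr : p = r := (Nat.prime_dvd_prime_iff_eq hp hr).mp (hp.dvd_of_dvd_pow hpdvd)
      have hdvd : orderOf g ∣ p ^ k := by
        rw [hpr, hrk]; exact orderOf_dvd_natCard g
      have h1 : orderOf g = 1 := Nat.Coprime.eq_one_of_dvd (Nat.Coprime.pow_right k hgo) hdvd
      rw [orderOf_eq_one_iff] at h1
      rw [h1]
      exact Subgroup.one_mem _

end Cfsg.Agent.Lib.Helper11.SNS2NILP
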