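import Mathlib
import Cfsg.Agent.Lib.Helper12.SNStmt


set_option autoImplicit false

universe u

namespace Cfsg.Agent.Lib.Helper11.SNS2SIMPLE

open Cfsg.Agent.Lib.Helper12.SNDef Cfsg.Agent.Lib.Helper12.SNStmt

theorem main : Cfsg.Agent.Lib.Helper12.SNStmt.S2Simple.{u} := by
  intro X _ _ _ p _ Q hQn hQ g hgo
  rcases IsSimpleGroup.eq_bot_or_eq_top_of_normal Q hQn with h | h
  · rw [Subgroup.mem_centralizer_iff]
    intro q hq
    have hq' : q ∈ Q := hq
    rw [h, Subgroup.mem_bot] at hq'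
    rw [hq']; simp
  · have hg : g ∈ Q := by rw [h]; exact Subgroup.mem_top g
    obtain ⟨k, hk⟩ := hQ ⟨g, hg⟩
    have hk' : g ^ (p ^ k) = 1 := by
      have := congrArg Subtype.val hk
      simpa using this
    have hdvd : orderOf g ∣ p ^ k := orderOf_dvd_of_pow_eq_one hk'
    have h1 : orderOf g = 1 := Nat.Coprime.eq_one_of_dvd (Nat.Coprime.pow_right k hgo) hdvd
    rw [orderOf_eq_one_iff] at h1
    rw [h1]
    exact Subgroup.one_mem _

end Cfsg.Agent.Lib.Helper11.SNS2SIMPLE
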