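import Mathlib

/-!
# A certificate checker for orders of non-abelian simple groups (arithmetic part)

`Alive n` collects arithmetic necessary conditions on the order `n` of a non-abelian finite
simple group (Burnside `p^a q^b`, Sylow counting, fixed-point congruences ...).  `check n c`
is a boolean certificate checker with `check n c = true → ¬ Alive n ∨ n ∈ specials`.
-/

set_option autoImplicit false

namespace Cfsg.Agent.Lib.Helper11.SieveCheck

/-- The primes below `83`. -/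
def smallPrimes : List ℕ :=
  [2, 3, 5, 7, 11, 13, 17, 19, 23, 29, 31, 37, 41, 43, 47, 53, 59, 61, 67, 71, 73, 79]

theorem prime_of_mem_smallPrimes {q : ℕ} (hq : q ∈ smallPrimes) : q.Prime := by
  simp only [smallPrimes, List.mem_cons, List.mem_nil_iff, or_false] at hq
  rcases hq with rfl | rfl | rfl | rfl | rfl | rfl | rfl | rfl | rfl | rfl | rfl | rfl | rfl | rfl
    | rfl | rfl | rfl | rfl | rfl | rfl | rfl | rfl <;> norm_num

theorem mem_smallPrimes_of_prime {s : ℕ} (hs : s.Prime) (h : s < 83) : s ∈ smallPrimes := by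
  have h2 := hs.two_le
  interval_cases s <;> first
    | decide
    | (exfalso; revert hs; norm_num)

/-- Trial division by the primes below `83`, valid below `83 ^ 2`. -/
def isPrimeB (p : ℕ) : Bool :=
  decide (2 ≤ p) && decide (p < 6889) && smallPrimes.all (fun s => decide (p ≤ s) || p % s != 0)

theorem isPrimeB_sound {p : ℕ} (h : isPrimeB p = true) : p.Prime := by
  simp only [isPrimeB, Bool.and_eq_true, decide_eq_true_eq, List.all_eq_true, Bool.or_eq_true,
    bne_iff_ne, ne_eq] at h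
  obtain ⟨⟨h2, hlt⟩, hall⟩ := h
  by_contra hnp
  have hm : p.minFac.Prime := Nat.minFac_prime (by omega)
  have hd := Nat.minFac_dvd p
  have hsq : p.minFac ^ 2 ≤ p := Nat.minFac_sq_le_self (by omega) hnp
  have hlt83 : p.minFac < 83 := by nlinarith
  rcases hall _ (mem_smallPrimes_of_prime hm hlt83) with h1 | h1
  · have := hm.two_le
    nlinarith
  · exact h1 (Nat.mod_eq_zero_of_dvd hd)

/-- Candidates `d ≡ 1 (mod p)`, `d ≠ 1`, `d ∣ m`. -/
def cands (p m : ℕ) : List ℕ :=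
  ((List.range (m / p)).map (fun j => 1 + p * (j + 1))).filter (fun d => m % d == 0)

theorem mem_cands {p m d : ℕ} (hp : 2 ≤ p) (hm : 0 < m) (hd : d ∣ m) (h1 : d % p = 1)
    (hne : d ≠ 1) : d ∈ cands p m := by
  unfold cands
  rw [List.mem_filter]
  have hdm : d ≤ m := Nat.le_of_dvd hm hd
  have hdiv := Nat.div_add_mod d p
  rw [h1] at hdiv
  have hq1 : 1 ≤ d / p := by
    rcases Nat.eq_zero_or_pos (d / p) with h0 | h0
    · rw [h0] at hdiv; omega
    · exact h0
  have hle : d / p ≤ m / p := Nat.div_le_div_right hdm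
  refine ⟨List.mem_map.mpr ⟨d / p - 1, List.mem_range.mpr (by omega), ?_⟩, ?_⟩
  · rw [Nat.sub_add_cancel hq1]; omega
  · simp [Nat.mod_eq_zero_of_dvd hd]

/-- `2 n ∣ d !`, only tested for `d < 20`. -/
def factOK (n d : ℕ) : Bool := decide (20 ≤ d) || d.factorial % (2 * n) == 0

theorem factOK_of_dvd {n d : ℕ} (h : 2 * n ∣ d.factorial) : factOK n d = true := by
  simp [factOK, Nat.mod_eq_zero_of_dvd h]

/-- Is there a possible number `f` of fixed points? -/
def fOK (p d q : ℕ) : Bool :=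
  (List.range (d / p + 1)).any (fun j =>
    decide (1 + p * j < d) && (1 + p * j) % q == d % q && (q != 2 || (1 + p * j) % 4 == d % 4))

theorem fOK_of {p d q f : ℕ} (h1 : f % p = 1) (h2 : f % q = d % q) (h3 : f < d)
    (h4 : q = 2 → f % 4 = d % 4) : fOK p d q = true := by
  unfold fOK
  rw [List.any_eq_true]
  have hdiv := Nat.div_add_mod f p
  rw [h1] at hdiv
  have hf : 1 + p * (f / p) = f := by omega
  have hle : f / p ≤ d / p := Nat.div_le_div_right h3.le
  refine ⟨f / p, List.mem_range.mpr (by omega), ?_⟩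
  rw [hf]
  simp only [Bool.and_eq_true, decide_eq_true_eq, beq_iff_eq, Bool.or_eq_true, bne_iff_ne, ne_eq]
  refine ⟨⟨h3, h2⟩, ?_⟩
  by_cases hq : q = 2
  · exact Or.inr (h4 hq)
  · exact Or.inl hq

/-- Is there a possible pair of character degrees (`|N(P)| = 2p`, `C(P) = P`)? -/
def x2ok (n p : ℕ) : Bool :=
  (List.range (n + 1)).any (fun D => D != 1 && n % D == 0 &&
    ((D % p == 1 && n % (D + 1) == 0) ||
      (D % p + 1 == p && decide (2 ≤ D) && n % (D - 1) == 0)))

theorem x2ok_of {n p : ℕ} (hn : 0 < n) (_hp : 2 ≤ p)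
    (h : ∃ D e : ℕ, D ∣ n ∧ e ∣ n ∧ D ≠ 1 ∧
      ((D % p = 1 ∧ e = D + 1) ∨ (D % p = p - 1 ∧ D = e + 1))) : x2ok n p = true := by
  obtain ⟨D, e, hD, he, hD1, hcase⟩ := h
  unfold x2ok
  rw [List.any_eq_true]
  have hDn : D ≤ n := Nat.le_of_dvd hn hD
  refine ⟨D, List.mem_range.mpr (by omega), ?_⟩
  simp only [Bool.and_eq_true, bne_iff_ne, ne_eq, beq_iff_eq, Bool.or_eq_true, decide_eq_true_eq]
  refine ⟨⟨hD1, Nat.mod_eq_zero_of_dvd hD⟩, ?_⟩
  rcases hcase with ⟨h1, h2⟩ | ⟨h1, h2⟩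
  · left
    exact ⟨h1, Nat.mod_eq_zero_of_dvd (h2 ▸ he)⟩
  · right
    have he0 : 0 < e := Nat.pos_of_dvd_of_pos he hn
    refine ⟨⟨by omega, by omega⟩, ?_⟩
    have : D - 1 = e := by omega
    rw [this]
    exact Nat.mod_eq_zero_of_dvd he

/-- Arithmetic data of an element of prime order `q` in `C(P)`. -/
def QData (_n p d _r _c q : ℕ) : Prop :=
  ∃ f : ℕ, f % p = 1 ∧ f % q = d % q ∧ f < d ∧ (q = 2 → f % 4 = d % 4)

def qOK (_n p d _r _c q : ℕ) : Bool := fOK p d q

theorem qOK_of {n p d r c q : ℕ} (h : QData n p d r c q) : qOK n p d r c q = true := by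
  obtain ⟨f, h1, h2, h3, h4⟩ := h
  exact fOK_of h1 h2 h3 h4

/-- Arithmetic data of a Sylow `p`-subgroup of order `p`: `d` Sylow subgroups, `r = |N : C|`,
`c = |C|`. -/
def PrimeData (n p : ℕ) (three : Prop) : Prop :=
  ∃ d r c : ℕ, d ∣ n / p ∧ d % p = 1 ∧ d ≠ 1 ∧ 2 * n ∣ d.factorial ∧ r ≠ 1 ∧ r ∣ p - 1 ∧
    c * r * d = n ∧ p ∣ c ∧
    (∀ q : ℕ, q.Prime → q ≠ p → q ∣ c → QData n p d r c q) ∧
    (7 ≤ p → r = 2 → c = p → ∃ D e : ℕ, D ∣ n ∧ e ∣ n ∧ D ≠ 1 ∧
      ((D % p = 1 ∧ e = D + 1) ∨ (D % p = p - 1 ∧ D = e + 1))) ∧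
    (three → c = p)

def rFail (n p : ℕ) (three : Bool) (d r : ℕ) : Bool :=
  (three && n / (d * r) != p) ||
    (decide (7 ≤ p) && r == 2 && n / (d * r) == p && !(x2ok n p)) ||
    smallPrimes.any (fun q => q != p && n / (d * r) % q == 0 && !(qOK n p d r (n / (d * r)) q))

def candFail (n p : ℕ) (three : Bool) (d : ℕ) : Bool :=
  !(factOK n d) ||
    (List.range (Nat.gcd (p - 1) (n / (d * p)) + 1)).all (fun r =>
      decide (r < 2) || Nat.gcd (p - 1) (n / (d * p)) % r != 0 || rFail n p three d r)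

def oneOK (n p : ℕ) (three : Bool) : Bool :=
  (cands p (n / p)).all (fun d => candFail n p three d)

theorem not_primeData {n p : ℕ} {three : Bool} (hn : 0 < n) (hp : p.Prime)
    (h : oneOK n p three = true) : ¬ PrimeData n p (three = true) := by
  rintro ⟨d, r, c, hd, hd1, hdne, hfact, hr1, hr, hcrd, hpc, hq, hx2, h3⟩
  have hp2 := hp.two_le
  have hd0 : 0 < d := by
    rcases Nat.eq_zero_or_pos d with h0 | h0
    · rw [h0] at hd1; simp at hd1
    · exact h0
  have hr0 : 0 < r := by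
    rcases Nat.eq_zero_or_pos r with h0 | h0
    · rw [h0] at hr
      have := Nat.eq_zero_of_zero_dvd hr
      omega
    · exact h0
  obtain ⟨c', rfl⟩ := hpc
  have hnp : n / p = c' * r * d := by
    rw [← hcrd]
    have : p * c' * r * d = p * (c' * r * d) := by ring
    rw [this, Nat.mul_div_cancel_left _ hp.pos]
  have hnp0 : 0 < n / p := by
    rw [hnp]
    rcases Nat.eq_zero_or_pos (c' * r * d) with h0 | h0
    · rw [← hcrd] at hn
      have : p * c' * r * d = p * (c' * r * d) := by ring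
      rw [this, h0] at hn
      omega
    · exact h0
  have hmem := mem_cands hp2 hnp0 hd hd1 hdne
  unfold oneOK at h
  rw [List.all_eq_true] at h
  have hc := h d hmem
  unfold candFail at hc
  rw [Bool.or_eq_true] at hc
  rcases hc with hc | hc
  · rw [factOK_of_dvd hfact] at hc
    simp at hc
  rw [List.all_eq_true] at hc
  have hndp : n / (d * p) = c' * r := by
    rw [← hcrd]
    have : p * c' * r * d = (c' * r) * (d * p) := by ring
    rw [this, Nat.mul_div_cancel _ (Nat.mul_pos hd0 hp.pos)]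
  have hrg : r ∣ Nat.gcd (p - 1) (n / (d * p)) := by
    apply Nat.dvd_gcd hr
    rw [hndp]
    exact Dvd.intro_left c' rfl
  have hg0 : 0 < Nat.gcd (p - 1) (n / (d * p)) := Nat.gcd_pos_of_pos_left _ (by omega)
  have hrle : r ≤ Nat.gcd (p - 1) (n / (d * p)) := Nat.le_of_dvd hg0 hrg
  have hcr := hc r (List.mem_range.mpr (by omega))
  simp only [Bool.or_eq_true, decide_eq_true_eq, bne_iff_ne, ne_eq] at hcr
  rcases hcr with (hcr | hcr) | hcr
  · omega
  · exact hcr (Nat.mod_eq_zero_of_dvd hrg)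
  have hndr : n / (d * r) = p * c' := by
    rw [← hcrd]
    have : p * c' * r * d = (p * c') * (d * r) := by ring
    rw [this, Nat.mul_div_cancel _ (Nat.mul_pos hd0 hr0)]
  unfold rFail at hcr
  rw [hndr] at hcr
  simp only [Bool.or_eq_true, Bool.and_eq_true, bne_iff_ne, ne_eq, decide_eq_true_eq,
    beq_iff_eq, Bool.not_eq_true', List.any_eq_true] at hcr
  rcases hcr with (⟨ht, hne⟩ | ⟨⟨⟨h7, hr2⟩, hcp⟩, hx⟩) | ⟨q, hqm, ⟨hqp, hqc⟩, hqf⟩
  · exact hne (h3 ht)
  · rw [x2ok_of hn hp2 (hx2 h7 hr2 hcp)] at hx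
    simp at hx
  · have := qOK_of (hq q (prime_of_mem_smallPrimes hqm) hqp (Nat.dvd_of_mod_eq_zero hqc))
    rw [this] at hqf
    simp at hqf

/-- Arithmetic data of a Sylow `p`-subgroup of order `p ^ a`, index `m`. -/
def SylData (n p a m : ℕ) : Prop :=
  ∃ d : ℕ, d ∣ m ∧ d % p = 1 ∧ d ≠ 1 ∧ 2 * n ∣ d.factorial ∧
    (2 ≤ a → d % (p * p) ≠ 1 → ∃ m' x : ℕ, m' ∣ m ∧ m' ≠ m ∧ x ∣ m' ∧ x % p = 1 ∧ x ≠ 1 ∧
      2 * n ∣ (m / m').factorial)

def hOK (n p m : ℕ) : Bool :=
  (List.range (m + 1)).any (fun m' => m' != 0 && m % m' == 0 && m' != m &&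
    factOK n (m / m') && !(cands p m').isEmpty)

def sylOK (n p a m : ℕ) : Bool :=
  if hOK n p m then (cands p m).all (fun d => !(factOK n d))
  else (cands p m).all (fun d => !(factOK n d) || (decide (2 ≤ a) && d % (p * p) != 1))

theorem not_sylData {n p a m : ℕ} (hp : 2 ≤ p) (hm : 0 < m) (h : sylOK n p a m = true) :
    ¬ SylData n p a m := by
  rintro ⟨d, hd, h1, hne, hfact, hH⟩
  have hmem := mem_cands hp hm hd h1 hne
  have hf := factOK_of_dvd hfact
  unfold sylOK at h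
  by_cases hO : hOK n p m = true
  · rw [if_pos hO, List.all_eq_true] at h
    have := h d hmem
    rw [hf] at this
    simp at this
  · rw [if_neg hO, List.all_eq_true] at h
    have h2 := h d hmem
    rw [hf] at h2
    simp only [Bool.not_true, Bool.false_or, Bool.and_eq_true, decide_eq_true_eq, bne_iff_ne,
      ne_eq] at h2
    obtain ⟨m', x, hm', hm'ne, hx, hx1, hxne, hfact'⟩ := hH h2.1 h2.2
    apply hO
    unfold hOK
    rw [List.any_eq_true]
    have hm'0 : 0 < m' := Nat.pos_of_dvd_of_pos hm' hm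
    have hm'le : m' ≤ m := Nat.le_of_dvd hm hm'
    refine ⟨m', List.mem_range.mpr (by omega), ?_⟩
    have hc := mem_cands hp hm'0 hx hx1 hxne
    have hne' : (cands p m').isEmpty = false := by
      cases hcs : cands p m' with
      | nil => rw [hcs] at hc; simp at hc
      | cons a l => rfl
    simp only [Bool.and_eq_true, bne_iff_ne, ne_eq, beq_iff_eq, Bool.not_eq_true']
    exact ⟨⟨⟨⟨by omega, Nat.mod_eq_zero_of_dvd hm'⟩, hm'ne⟩, factOK_of_dvd hfact'⟩, hne'⟩

/-- Arithmetic necessary conditions for the order of a non-abelian finite simple group. -/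
def Alive (n : ℕ) : Prop :=
  0 < n ∧
  (∀ p q : ℕ, p.Prime → q.Prime → ¬ (∀ s : ℕ, s.Prime → s ∣ n → s = p ∨ s = q)) ∧
  (∀ p a m : ℕ, p.Prime → 1 ≤ a → n = p ^ a * m → ¬ p ∣ m → SylData n p a m) ∧
  (∀ p : ℕ, p.Prime → p ∣ n → ¬ p ∣ n / p → ∀ three : Prop,
    (three → ∃ q1 q2 a b : ℕ, q1.Prime ∧ q2.Prime ∧ q1 ≠ q2 ∧ q1 ≠ p ∧ q2 ≠ p ∧
      n = q1 ^ a * q2 ^ b * p) → PrimeData n p three)

/-- Certificates. -/
inductive Cert where
  | two (p a q b : ℕ)
  | syl (p a : ℕ)
  | one (p : ℕ)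
  | oneF (p q1 a q2 b : ℕ)
  | skip

/-- Orders not handled by the generic tests. -/
def specials : List ℕ :=
  [4080, 5616, 6048, 6072, 3648, 3744, 4032, 4320, 5040, 5472, 5760,
   3696, 3780, 3960, 4200, 4212, 4620, 4680, 4760, 4896, 4960, 5148, 5400, 5460, 5880, 5940]

def check (n : ℕ) : Cert → Bool
  | .two p a q b => isPrimeB p && isPrimeB q && p ^ a * q ^ b == n
  | .syl p a => isPrimeB p && decide (1 ≤ a) && n % p ^ a == 0 && (n / p ^ a) % p != 0 &&
      sylOK n p a (n / p ^ a)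
  | .one p => isPrimeB p && n % p == 0 && (n / p) % p != 0 && oneOK n p false
  | .oneF p q1 a q2 b => isPrimeB p && isPrimeB q1 && isPrimeB q2 && q1 != q2 && q1 != p &&
      q2 != p && q1 ^ a * q2 ^ b * p == n && (n / p) % p != 0 && oneOK n p true
  | .skip => decide (n ∈ specials)

theorem check_sound {n : ℕ} {c : Cert} (h : check n c = true) : ¬ Alive n ∨ n ∈ specials := by
  cases c with
  | two p a q b =>
    left
    simp only [check, Bool.and_eq_true, beq_iff_eq] at h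
    obtain ⟨⟨hp, hq⟩, hn⟩ := h
    have hp := isPrimeB_sound hp
    have hq := isPrimeB_sound hq
    rintro ⟨-, h2, -, -⟩
    apply h2 p q hp hq
    intro s hs hsn
    rw [← hn] at hsn
    rcases (Nat.Prime.dvd_mul hs).mp hsn with h1 | h1
    · left
      exact (Nat.prime_dvd_prime_iff_eq hs hp).mp (hs.dvd_of_dvd_pow h1)
    · right
      exact (Nat.prime_dvd_prime_iff_eq hs hq).mp (hs.dvd_of_dvd_pow h1)
  | syl p a =>
    left
    simp only [check, Bool.and_eq_true, decide_eq_true_eq, beq_iff_eq, bne_iff_ne, ne_eq] at h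
    obtain ⟨⟨⟨⟨hp, ha⟩, hdiv⟩, hndiv⟩, hsyl⟩ := h
    have hp := isPrimeB_sound hp
    rintro ⟨hn0, -, h3, -⟩
    have hn : n = p ^ a * (n / p ^ a) := (Nat.mul_div_cancel' (Nat.dvd_of_mod_eq_zero hdiv)).symm
    have hm0 : 0 < n / p ^ a := by
      rcases Nat.eq_zero_or_pos (n / p ^ a) with h0 | h0
      · rw [h0, mul_zero] at hn; omega
      · exact h0
    have hnd : ¬ p ∣ n / p ^ a := fun hd => hndiv (Nat.mod_eq_zero_of_dvd hd)
    exact not_sylData hp.two_le hm0 hsyl (h3 p a (n / p ^ a) hp ha hn hnd)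
  | one p =>
    left
    simp only [check, Bool.and_eq_true, beq_iff_eq, bne_iff_ne, ne_eq] at h
    obtain ⟨⟨⟨hp, hdiv⟩, hndiv⟩, hone⟩ := h
    have hp := isPrimeB_sound hp
    rintro ⟨hn0, -, -, h4⟩
    refine not_primeData hn0 hp hone (h4 p hp (Nat.dvd_of_mod_eq_zero hdiv)
      (fun hd => hndiv (Nat.mod_eq_zero_of_dvd hd)) _ ?_)
    intro hf
    exact absurd hf (by simp)
  | oneF p q1 a q2 b =>
    left
    simp only [check, Bool.and_eq_true, beq_iff_eq, bne_iff_ne, ne_eq] at h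
    obtain ⟨⟨⟨⟨⟨⟨⟨⟨hp, hq1⟩, hq2⟩, h12⟩, h1p⟩, h2p⟩, hn⟩, hndiv⟩, hone⟩ := h
    have hp := isPrimeB_sound hp
    have hq1 := isPrimeB_sound hq1
    have hq2 := isPrimeB_sound hq2
    rintro ⟨hn0, -, -, h4⟩
    refine not_primeData hn0 hp hone (h4 p hp (hn ▸ Dvd.intro_left _ rfl)
      (fun hd => hndiv (Nat.mod_eq_zero_of_dvd hd)) _ ?_)
    intro _
    exact ⟨q1, q2, a, b, hq1, hq2, h12, h1p, h2p, hn.symm⟩
  | skip =>
    right
    simpa [check] using h

def checkAll : ℕ → List Cert → Bool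
  | _, [] => true
  | n, c :: cs => check n c && checkAll (n + 1) cs

theorem checkAll_sound : ∀ (cs : List Cert) (n0 : ℕ), checkAll n0 cs = true →
    ∀ n : ℕ, n0 ≤ n → n < n0 + cs.length → ¬ Alive n ∨ n ∈ specials := by
  intro cs
  induction cs with
  | nil =>
    intro n0 _ n h1 h2
    simp at h2
    omega
  | cons c cs ih =>
    intro n0 h n h1 h2
    simp only [checkAll, Bool.and_eq_true] at h
    rcases Nat.eq_or_lt_of_le h1 with rfl | hlt
    · exact check_sound h.1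
    · apply ih (n0 + 1) h.2 n (by omega)
      simp only [List.length_cons] at h2
      omega

end Cfsg.Agent.Lib.Helper11.SieveCheck
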