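import Mathlib
import Cfsg.Agent.Lib.Helper38.Sp4Stmt

/-!
# S5320 piece GX0: the element `X = (1/2) fromBlocks h (-h) h h` of `Sp₄`
-/

set_option autoImplicit false

namespace Cfsg.Agent.Lib.Helper11.Sp4GX0

open Matrix Cfsg.Agent.Lib.Helper38.Sp4Stmt

universe u

variable {F : Type u} [Field F]

/-- the matrix of `X` -/
def XMat (F : Type u) [Field F] : Matrix (Fin 2 ⊕ Fin 2) (Fin 2 ⊕ Fin 2) F :=
  Matrix.fromBlocks !![2⁻¹, 2⁻¹; 2⁻¹, -2⁻¹] !![-2⁻¹, -2⁻¹; -2⁻¹, 2⁻¹]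
    !![2⁻¹, 2⁻¹; 2⁻¹, -2⁻¹] !![2⁻¹, 2⁻¹; 2⁻¹, -2⁻¹]

theorem xMat_mem (h2 : (2 : F) ≠ 0) : XMat F ∈ Matrix.symplecticGroup (Fin 2) F := by
  rw [SymplecticGroup.mem_iff]
  ext i j
  rcases i with i | i <;> rcases j with j | j <;> fin_cases i <;> fin_cases j <;>
    simp [XMat, Matrix.J, Matrix.fromBlocks, Matrix.mul_apply,
      Fintype.sum_sum_type, Fin.sum_univ_two, Matrix.transpose_apply, Matrix.one_apply] <;>
    field_simp <;> ring

/-- conjugation in `PSp` from a matrix identity up to a scalar -/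
theorem pr_conj {X A B : Matrix.symplecticGroup (Fin 2) F} (c : F)
    (h : (X : Matrix (Fin 2 ⊕ Fin 2) (Fin 2 ⊕ Fin 2) F) * (A : Matrix (Fin 2 ⊕ Fin 2) (Fin 2 ⊕ Fin 2) F)
      = c • ((B : Matrix (Fin 2 ⊕ Fin 2) (Fin 2 ⊕ Fin 2) F) *
        (X : Matrix (Fin 2 ⊕ Fin 2) (Fin 2 ⊕ Fin 2) F))) :
    pr X * pr A * (pr X)⁻¹ = pr B := by
  rw [← map_mul, mul_inv_eq_iff_eq_mul, ← map_mul]
  exact Cfsg.Agent.Lib.Helper43.SpBasic.pr_eq_of_scalar c (by
    rw [Submonoid.coe_mul, Submonoid.coe_mul]; exact h)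

theorem mat1 (h2 : (2 : F) ≠ 0) :
    XMat F * PsiMat (-1 : Matrix (Fin 2) (Fin 2) F) 1 = (-1 : F) • (T0Mat F * XMat F) := by
  ext i j
  rcases i with i | i <;> rcases j with j | j <;> fin_cases i <;> fin_cases j <;>
    simp [XMat, PsiMat, T0Mat, Matrix.fromBlocks, Matrix.diagonal, Matrix.mul_apply,
      Fintype.sum_sum_type, Fin.sum_univ_two, Matrix.one_apply]

theorem mat2 (h2 : (2 : F) ≠ 0) :
    XMat F * T0Mat F = (-1 : F) • (PsiMat (-1 : Matrix (Fin 2) (Fin 2) F) 1 * XMat F) := by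
  ext i j
  rcases i with i | i <;> rcases j with j | j <;> fin_cases i <;> fin_cases j <;>
    simp [XMat, PsiMat, T0Mat, Matrix.fromBlocks, Matrix.diagonal, Matrix.mul_apply,
      Fintype.sum_sum_type, Fin.sum_univ_two, Matrix.one_apply]

theorem mat3 :
    XMat F * PsiMat !![0, -1; 1, 0] !![0, -1; 1, 0] =
      (1 : F) • (PsiMat !![0, -1; 1, 0] !![0, -1; 1, 0] * XMat F) := by
  ext i j
  rcases i with i | i <;> rcases j with j | j <;> fin_cases i <;> fin_cases j <;>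
    simp [XMat, PsiMat, Matrix.fromBlocks, Matrix.diagonal, Matrix.mul_apply,
      Fintype.sum_sum_type, Fin.sum_univ_two]

theorem mat4 (x y : F) :
    XMat F * PsiMat !![x, y; y, -x] !![x, y; y, -x] =
      (1 : F) • (PsiMat (!![0, -1; 1, 0] * !![x, y; y, -x]) (!![0, -1; 1, 0] * !![x, y; y, -x])
        * XMat F) := by
  ext i j
  rcases i with i | i <;> rcases j with j | j <;> fin_cases i <;> fin_cases j <;>
    simp [XMat, PsiMat, Matrix.fromBlocks, Matrix.diagonal, Matrix.mul_apply,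
      Fintype.sum_sum_type, Fin.sum_univ_two] <;> ring

theorem mat5 (h2 : (2 : F) ≠ 0) (x y : F) :
    XMat F * PsiMat !![(-1 + x - y) / 2, (-1 + y + x) / 2; (1 + y + x) / 2, (-1 - x + y) / 2]
        !![(-1 + x - y) / 2, (-1 + y + x) / 2; (1 + y + x) / 2, (-1 - x + y) / 2] =
      (-1 : F) • (PsiMat (!![0, -1; 1, 0] *
          !![(-1 - x + y) / 2, -((-1 + y + x) / 2); -((1 + y + x) / 2), (-1 + x - y) / 2])
        (!![0, -1; 1, 0] *
          !![(-1 - x + y) / 2, -((-1 + y + x) / 2); -((1 + y + x) / 2), (-1 + x - y) / 2])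
        * XMat F) := by
  ext i j
  rcases i with i | i <;> rcases j with j | j <;> fin_cases i <;> fin_cases j <;>
    simp [XMat, PsiMat, Matrix.fromBlocks, Matrix.diagonal, Matrix.mul_apply,
      Fintype.sum_sum_type, Fin.sum_univ_two] <;> field_simp <;> ring

theorem mat_sq (h2 : (2 : F) ≠ 0) :
    XMat F * XMat F = PsiMat !![0, -1; 1, 0] !![0, -1; 1, 0] := by
  ext i j
  rcases i with i | i <;> rcases j with j | j <;> fin_cases i <;> fin_cases j <;>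
    simp [XMat, PsiMat, Matrix.fromBlocks, Matrix.diagonal, Matrix.mul_apply,
      Fintype.sum_sum_type, Fin.sum_univ_two] <;> field_simp <;> ring

theorem w0_coe : ((w0 : Matrix.SpecialLinearGroup (Fin 2) F) : Matrix (Fin 2) (Fin 2) F) =
    !![0, -1; 1, 0] := rfl

theorem w0_pow_four : (w0 : Matrix.SpecialLinearGroup (Fin 2) F) ^ 4 = 1 := by
  apply Subtype.ext
  show ((w0 ^ 4 : Matrix.SpecialLinearGroup (Fin 2) F) : Matrix (Fin 2) (Fin 2) F) = 1
  rw [Matrix.SpecialLinearGroup.coe_pow, w0_coe]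
  ext i j
  fin_cases i <;> fin_cases j <;> simp [pow_succ, Matrix.mul_apply, Fin.sum_univ_two]

theorem main : GX0.{u} := by
  intro F _ Ψ t hΨ ht h2 x y h
  refine ⟨⟨XMat F, xMat_mem h2⟩, ?_, ?_, ?_, ?_, ?_, ?_⟩
  · have h1 : (⟨XMat F, xMat_mem h2⟩ : Matrix.symplecticGroup (Fin 2) F) *
        ⟨XMat F, xMat_mem h2⟩ = Ψ (w0, w0) := by
      apply Subtype.ext
      rw [Submonoid.coe_mul, hΨ]
      exact mat_sq h2
    have h3 : (8 : ℕ) = 2 * 4 := rfl
    rw [h3, pow_mul, pow_two, h1, ← map_pow, Prod.pow_mk, w0_pow_four]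
    exact map_one Ψ
  · apply pr_conj (-1 : F)
    rw [hΨ, ht]
    simp only [Matrix.SpecialLinearGroup.coe_neg, Matrix.SpecialLinearGroup.coe_one]
    exact mat1 h2
  · apply pr_conj (-1 : F)
    rw [hΨ, ht]
    simp only [Matrix.SpecialLinearGroup.coe_neg, Matrix.SpecialLinearGroup.coe_one]
    exact mat2 h2
  · apply pr_conj (1 : F)
    rw [hΨ, w0_coe]
    exact mat3
  · apply pr_conj (1 : F)
    rw [hΨ, hΨ, Matrix.SpecialLinearGroup.coe_mul, w0_coe]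
    exact mat4 x y
  · have e0 : Ψ (w0 * (ww x y h h2)⁻¹, w0 * (ww x y h h2)⁻¹) =
        Ψ (w0, w0) * (Ψ (ww x y h h2, ww x y h h2))⁻¹ := by
      rw [← map_inv, ← map_mul]; rfl
    have e2 : pr (Ψ (w0, w0)) * (pr (Ψ (ww x y h h2, ww x y h h2)))⁻¹ =
        pr (Ψ (w0 * (ww x y h h2)⁻¹, w0 * (ww x y h h2)⁻¹)) := by
      rw [e0, map_mul, map_inv]
    rw [← eq_mul_inv_iff_mul_eq, e2]
    apply pr_conj (-1 : F)
    rw [hΨ, hΨ]
    simp only [Matrix.SpecialLinearGroup.coe_mul,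
      Matrix.SpecialLinearGroup.coe_inv, w0_coe]
    have e1 : ((ww x y h h2 : Matrix.SpecialLinearGroup (Fin 2) F) : Matrix (Fin 2) (Fin 2) F) =
      !![(-1 + x - y) / 2, (-1 + y + x) / 2; (1 + y + x) / 2, (-1 - x + y) / 2] := rfl
    rw [e1, Matrix.adjugate_fin_two_of]
    exact mat5 h2 x y

end Cfsg.Agent.Lib.Helper11.Sp4GX0
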