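import Mathlib
import Cfsg.Agent.Lib.Helper38.Sp4Stmt

/-!
# S5320 piece PSI: the block embedding `SL₂ × SL₂ → Sp₄` and the swap exist
-/

set_option autoImplicit false

namespace Cfsg.Agent.Lib.Helper11.Sp4PSI

open Matrix Cfsg.Agent.Lib.Helper38.Sp4Stmt

universe u

variable {F : Type u} [Field F]

/-- entrywise description of `PsiMat` -/
theorem psiMat_apply (a b : Matrix (Fin 2) (Fin 2) F) :
    PsiMat a b = Matrix.of (fun i j : Fin 2 ⊕ Fin 2 =>
      match i, j with
      | Sum.inl 0, Sum.inl 0 => a 0 0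
      | Sum.inl 0, Sum.inl 1 => 0
      | Sum.inl 1, Sum.inl 0 => 0
      | Sum.inl 1, Sum.inl 1 => b 0 0
      | Sum.inl 0, Sum.inr 0 => a 0 1
      | Sum.inl 0, Sum.inr 1 => 0
      | Sum.inl 1, Sum.inr 0 => 0
      | Sum.inl 1, Sum.inr 1 => b 0 1
      | Sum.inr 0, Sum.inl 0 => a 1 0
      | Sum.inr 0, Sum.inl 1 => 0
      | Sum.inr 1, Sum.inl 0 => 0
      | Sum.inr 1, Sum.inl 1 => b 1 0
      | Sum.inr 0, Sum.inr 0 => a 1 1
      | Sum.inr 0, Sum.inr 1 => 0
      | Sum.inr 1, Sum.inr 0 => 0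
      | Sum.inr 1, Sum.inr 1 => b 1 1) := by
  ext i j
  rcases i with i | i <;> rcases j with j | j <;> fin_cases i <;> fin_cases j <;>
    simp [PsiMat, Matrix.fromBlocks, Matrix.diagonal]

theorem psiMat_one : PsiMat (1 : Matrix (Fin 2) (Fin 2) F) 1 = 1 := by
  ext i j
  rcases i with i | i <;> rcases j with j | j <;> fin_cases i <;> fin_cases j <;>
    simp [PsiMat, Matrix.fromBlocks, Matrix.diagonal, Matrix.one_apply]

theorem psiMat_mul (a b a' b' : Matrix (Fin 2) (Fin 2) F) :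
    PsiMat (a * a') (b * b') = PsiMat a b * PsiMat a' b' := by
  ext i j
  rcases i with i | i <;> rcases j with j | j <;> fin_cases i <;> fin_cases j <;>
    simp [PsiMat, Matrix.fromBlocks, Matrix.diagonal, Matrix.mul_apply, Fintype.sum_sum_type,
      Fin.sum_univ_two]

theorem psiMat_mem (a b : Matrix (Fin 2) (Fin 2) F) (ha : a.det = 1) (hb : b.det = 1) :
    PsiMat a b ∈ Matrix.symplecticGroup (Fin 2) F := by
  rw [SymplecticGroup.mem_iff]
  rw [Matrix.det_fin_two] at ha hb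
  ext i j
  rcases i with i | i <;> rcases j with j | j <;> fin_cases i <;> fin_cases j <;>
    simp [PsiMat, Matrix.J, Matrix.fromBlocks, Matrix.diagonal, Matrix.mul_apply,
      Fintype.sum_sum_type, Fin.sum_univ_two, Matrix.transpose_apply, Matrix.one_apply] <;>
    first | linear_combination ha | linear_combination hb | linear_combination (-1 : F) * ha |
      linear_combination (-1 : F) * hb | ring

/-- the block embedding -/
def Psi : Matrix.SpecialLinearGroup (Fin 2) F × Matrix.SpecialLinearGroup (Fin 2) F →*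
    Matrix.symplecticGroup (Fin 2) F where
  toFun p := ⟨PsiMat (p.1 : Matrix (Fin 2) (Fin 2) F) (p.2 : Matrix (Fin 2) (Fin 2) F),
    psiMat_mem _ _ p.1.2 p.2.2⟩
  map_one' := by
    apply Subtype.ext
    show PsiMat _ _ = (1 : Matrix (Fin 2 ⊕ Fin 2) (Fin 2 ⊕ Fin 2) F)
    simp only [Prod.fst_one, Prod.snd_one, Matrix.SpecialLinearGroup.coe_one]
    exact psiMat_one
  map_mul' p q := by
    apply Subtype.ext
    show PsiMat _ _ = PsiMat _ _ * PsiMat _ _
    simp only [Prod.fst_mul, Prod.snd_mul, Matrix.SpecialLinearGroup.coe_mul]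
    exact psiMat_mul _ _ _ _

theorem isPsi_Psi : IsPsi (Psi (F := F)) := fun _ _ => rfl

theorem t0Mat_mem : T0Mat F ∈ Matrix.symplecticGroup (Fin 2) F := by
  rw [SymplecticGroup.mem_iff]
  ext i j
  rcases i with i | i <;> rcases j with j | j <;> fin_cases i <;> fin_cases j <;>
    simp [T0Mat, Matrix.J, Matrix.fromBlocks, Matrix.mul_apply,
      Fintype.sum_sum_type, Fin.sum_univ_two, Matrix.transpose_apply, Matrix.one_apply]

theorem main : PSI.{u} := by
  intro F _
  exact ⟨⟨Psi, isPsi_Psi⟩, ⟨⟨T0Mat F, t0Mat_mem⟩, rfl⟩⟩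

end Cfsg.Agent.Lib.Helper11.Sp4PSI
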