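import Cfsg.Agent.Lib.Helper32.T3Stmt

/-!
# S3701: basic group facts in the configuration `3^3 : 2^2` (shared by SYL, NCORE, NOFUS, KGRP)
-/

set_option autoImplicit false

namespace Cfsg.Agent.Lib.Helper11.T3Basic

open Cfsg
open Cfsg.Agent.Lib.Helper32.T3Stmt
open scoped Pointwise

universe u

/-- A 3-subgroup `T` such that every element of its normalizer squares into `T` is a maximal
3-subgroup. -/
theorem eq_of_sq_mem {G : Type u} [Group G] [Finite G] (T : Subgroup G)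
    (hsq : ∀ g ∈ Subgroup.normalizer (T : Set G), g ^ 2 ∈ T) (P : Subgroup G)
    (hP : IsPGroup 3 P) (hTP : T ≤ P) : T = P := by
  by_contra hne
  have hlt : T < P := lt_of_le_of_ne hTP hne
  have : Fact (Nat.Prime 3) := ⟨Nat.prime_three⟩
  have hnil : Group.IsNilpotent P := hP.isNilpotent
  have hnc := Group.normalizerCondition_of_isNilpotent (G := P)
  have hlt' : T.subgroupOf P < ⊤ := by
    rw [lt_top_iff_ne_top]
    intro h
    rw [Subgroup.subgroupOf_eq_top] at h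
    exact hne (le_antisymm hTP h)
  have hlt2 := hnc (T.subgroupOf P) hlt'
  obtain ⟨p, hpN, hpT⟩ := SetLike.exists_of_lt hlt2
  have hpN' : (p : G) ∈ Subgroup.normalizer (T : Set G) := by
    rw [Subgroup.mem_normalizer_iff] at hpN ⊢
    intro t
    constructor
    · intro ht
      have := (hpN ⟨t, hTP ht⟩).1 (by simpa [Subgroup.mem_subgroupOf] using ht)
      simpa [Subgroup.mem_subgroupOf] using this
    · intro ht
      have h1 : (p : G) * t * (p : G)⁻¹ ∈ P := hTP ht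
      have h2 : t ∈ P := by
        have := P.mul_mem (P.mul_mem (P.inv_mem p.2) h1) p.2
        simpa [mul_assoc] using this
      have := (hpN ⟨t, h2⟩).2 (by simpa [Subgroup.mem_subgroupOf] using ht)
      simpa [Subgroup.mem_subgroupOf] using this
  have hsq' := hsq _ hpN'
  obtain ⟨k, hk⟩ := hP p
  have hk' : (p : G) ^ (3 ^ k) = 1 := by
    have := congrArg Subtype.val hk
    simpa using this
  have hodd : Odd (3 ^ k) := Odd.pow (by decide)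
  obtain ⟨m, hm⟩ := hodd
  have hp : (p : G) = ((p : G) ^ 2) ^ (m + 1) := by
    rw [← pow_mul]
    have : 2 * (m + 1) = 3 ^ k + 1 := by omega
    rw [this, pow_succ, hk', one_mul]
  apply hpT
  rw [Subgroup.mem_subgroupOf, hp]
  exact T.pow_mem hsq' _

variable {G : Type u} [Group G] {T H : Subgroup G} {x1 x2 x3 u1 u2 u3 : G}

theorem x1_mem (hc : Cfg3 T H x1 x2 x3 u1 u2 u3) : x1 ∈ T :=
  (hc.memT _).2 ⟨1, 0, 0, by simp⟩

theorem x2_mem (hc : Cfg3 T H x1 x2 x3 u1 u2 u3) : x2 ∈ T :=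
  (hc.memT _).2 ⟨0, 1, 0, by simp⟩

theorem x3_mem (hc : Cfg3 T H x1 x2 x3 u1 u2 u3) : x3 ∈ T :=
  (hc.memT _).2 ⟨0, 0, 1, by simp⟩

theorem T_comm (hc : Cfg3 T H x1 x2 x3 u1 u2 u3) {s t : G} (hs : s ∈ T) (ht : t ∈ T) :
    s * t = t * s := by
  obtain ⟨i, j, k, rfl⟩ := (hc.memT s).1 hs
  obtain ⟨i', j', k', rfl⟩ := (hc.memT t).1 ht
  have c12 : Commute x1 x2 := hc.c12
  have c13 : Commute x1 x3 := hc.c13
  have c23 : Commute x2 x3 := hc.c23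
  have h1 : ∀ i j k : ℕ, Commute x1 (x1 ^ i * x2 ^ j * x3 ^ k) := fun i j k =>
    (((Commute.refl x1).pow_right i).mul_right (c12.pow_right j)).mul_right (c13.pow_right k)
  have h2 : ∀ i j k : ℕ, Commute x2 (x1 ^ i * x2 ^ j * x3 ^ k) := fun i j k =>
    ((c12.symm.pow_right i).mul_right ((Commute.refl x2).pow_right j)).mul_right
      (c23.pow_right k)
  have h3 : ∀ i j k : ℕ, Commute x3 (x1 ^ i * x2 ^ j * x3 ^ k) := fun i j k =>
    ((c13.symm.pow_right i).mul_right (c23.symm.pow_right j)).mul_right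
      ((Commute.refl x3).pow_right k)
  exact ((((h1 i' j' k').pow_left i).mul_left ((h2 i' j' k').pow_left j)).mul_left
    ((h3 i' j' k').pow_left k)).eq

theorem T_pow3 (hc : Cfg3 T H x1 x2 x3 u1 u2 u3) {t : G} (ht : t ∈ T) : t ^ 3 = 1 := by
  obtain ⟨i, j, k, rfl⟩ := (hc.memT t).1 ht
  have c12 : Commute x1 x2 := hc.c12
  have c13 : Commute x1 x3 := hc.c13
  have c23 : Commute x2 x3 := hc.c23
  rw [Commute.mul_pow ((c13.pow_pow i k).mul_left (c23.pow_pow j k)), (c12.pow_pow i j).mul_pow,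
    ← pow_mul, ← pow_mul, ← pow_mul, mul_comm i, mul_comm j, mul_comm k, pow_mul, pow_mul,
    pow_mul, hc.x13, hc.x23, hc.x33]
  simp

theorem T_isPGroup (hc : Cfg3 T H x1 x2 x3 u1 u2 u3) : IsPGroup 3 T := by
  rintro ⟨t, ht⟩
  refine ⟨1, ?_⟩
  apply Subtype.ext
  simp only [pow_one, Subgroup.coe_pow, Subgroup.coe_one]
  exact T_pow3 hc ht

theorem T_le_H (hc : Cfg3 T H x1 x2 x3 u1 u2 u3) : T ≤ H := by
  intro t ht
  exact (hc.memH t).2 ⟨t, ht, Or.inl rfl⟩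

theorem u1_mem (hc : Cfg3 T H x1 x2 x3 u1 u2 u3) : u1 ∈ H :=
  (hc.memH _).2 ⟨1, T.one_mem, Or.inr (Or.inl (by simp))⟩

/-- an element conjugating the three generators into `T` conjugates `T` into `T`. -/
theorem conj_gen (hc : Cfg3 T H x1 x2 x3 u1 u2 u3) (u : G) (h1 : u * x1 * u⁻¹ ∈ T)
    (h2 : u * x2 * u⁻¹ ∈ T) (h3 : u * x3 * u⁻¹ ∈ T) {t : G} (ht : t ∈ T) :
    u * t * u⁻¹ ∈ T := by
  obtain ⟨i, j, k, rfl⟩ := (hc.memT t).1 ht
  have : u * (x1 ^ i * x2 ^ j * x3 ^ k) * u⁻¹ =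
      (u * x1 * u⁻¹) ^ i * (u * x2 * u⁻¹) ^ j * (u * x3 * u⁻¹) ^ k := by
    rw [conj_pow, conj_pow, conj_pow]; group
  rw [this]
  exact T.mul_mem (T.mul_mem (T.pow_mem h1 i) (T.pow_mem h2 j)) (T.pow_mem h3 k)

theorem conj_u1 (hc : Cfg3 T H x1 x2 x3 u1 u2 u3) {t : G} (ht : t ∈ T) :
    u1 * t * u1⁻¹ ∈ T := by
  refine conj_gen hc u1 ?_ ?_ ?_ ht
  · rw [hc.a11, mul_inv_cancel_right]; exact x1_mem hc
  · rw [hc.a12]; exact T.inv_mem (x2_mem hc)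
  · rw [hc.a13]; exact T.inv_mem (x3_mem hc)

theorem conj_u2 (hc : Cfg3 T H x1 x2 x3 u1 u2 u3) {t : G} (ht : t ∈ T) :
    u2 * t * u2⁻¹ ∈ T := by
  refine conj_gen hc u2 ?_ ?_ ?_ ht
  · rw [hc.a21]; exact T.inv_mem (x1_mem hc)
  · rw [hc.a22, mul_inv_cancel_right]; exact x2_mem hc
  · rw [hc.a23]; exact T.inv_mem (x3_mem hc)

theorem conj_u3 (hc : Cfg3 T H x1 x2 x3 u1 u2 u3) {t : G} (ht : t ∈ T) :
    u3 * t * u3⁻¹ ∈ T := by
  refine conj_gen hc u3 ?_ ?_ ?_ ht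
  · rw [hc.a31]; exact T.inv_mem (x1_mem hc)
  · rw [hc.a32]; exact T.inv_mem (x2_mem hc)
  · rw [hc.a33, mul_inv_cancel_right]; exact x3_mem hc

/-- `H` normalizes `T`. -/
theorem conj_mem (hc : Cfg3 T H x1 x2 x3 u1 u2 u3) {g : G} (hg : g ∈ H) {t : G} (ht : t ∈ T) :
    g * t * g⁻¹ ∈ T := by
  obtain ⟨s, hs, h | h | h | h⟩ := (hc.memH g).1 hg
  · rw [h, T_comm hc hs ht, mul_inv_cancel_right]; exact ht
  · have : g * t * g⁻¹ = s * (u1 * t * u1⁻¹) * s⁻¹ := by rw [h]; group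
    rw [this, T_comm hc hs (conj_u1 hc ht), mul_inv_cancel_right]; exact conj_u1 hc ht
  · have : g * t * g⁻¹ = s * (u2 * t * u2⁻¹) * s⁻¹ := by rw [h]; group
    rw [this, T_comm hc hs (conj_u2 hc ht), mul_inv_cancel_right]; exact conj_u2 hc ht
  · have : g * t * g⁻¹ = s * (u3 * t * u3⁻¹) * s⁻¹ := by rw [h]; group
    rw [this, T_comm hc hs (conj_u3 hc ht), mul_inv_cancel_right]; exact conj_u3 hc ht

/-- squares of elements of `H` lie in `T`. -/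
theorem sq_mem_T (hc : Cfg3 T H x1 x2 x3 u1 u2 u3) {g : G} (hg : g ∈ H) : g ^ 2 ∈ T := by
  obtain ⟨s, hs, h | h | h | h⟩ := (hc.memH g).1 hg
  · rw [h]; exact T.pow_mem hs 2
  · have : g ^ 2 = s * (u1 * s * u1⁻¹) * u1 ^ 2 := by rw [h, pow_two, pow_two]; group
    rw [this, hc.u1sq, mul_one]; exact T.mul_mem hs (conj_u1 hc hs)
  · have : g ^ 2 = s * (u2 * s * u2⁻¹) * u2 ^ 2 := by rw [h, pow_two, pow_two]; group
    rw [this, hc.u2sq, mul_one]; exact T.mul_mem hs (conj_u2 hc hs)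
  · have : g ^ 2 = s * (u3 * s * u3⁻¹) * u3 ^ 2 := by rw [h, pow_two, pow_two]; group
    rw [this, hc.u3sq, mul_one]; exact T.mul_mem hs (conj_u3 hc hs)

theorem mem_T_of_pow3 (hc : Cfg3 T H x1 x2 x3 u1 u2 u3) {p : G} (hp : p ∈ H) (hp3 : p ^ 3 = 1) :
    p ∈ T := by
  have h6 := sq_mem_T hc hp
  have h7 : p = (p ^ 2)⁻¹ := by rw [eq_inv_iff_mul_eq_one, ← pow_succ', hp3]
  rw [h7]; exact T.inv_mem h6

/-- `T` is a TI-subgroup with normalizer `H`. -/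
theorem ti (hc : Cfg3 T H x1 x2 x3 u1 u2 u3) (g t : G) (ht : t ∈ T) (ht1 : t ≠ 1)
    (hgt : g * t * g⁻¹ ∈ T) : g ∈ H := by
  have hinv : g⁻¹ ∈ H := by
    apply hc.norm
    intro s hs
    rw [inv_inv]
    have hcomm : g⁻¹ * s * g * t = t * (g⁻¹ * s * g) := by
      have h4 := T_comm hc hs hgt
      calc g⁻¹ * s * g * t = g⁻¹ * (s * (g * t * g⁻¹)) * g := by group
        _ = g⁻¹ * ((g * t * g⁻¹) * s) * g := by rw [h4]
        _ = t * (g⁻¹ * s * g) := by group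
    have hH : g⁻¹ * s * g ∈ H := hc.loc t ht ht1 _ hcomm
    have h3 : (g⁻¹ * s * g) ^ 3 = 1 := by
      have := conj_pow (a := g⁻¹) (b := s) (i := 3)
      rw [inv_inv] at this
      rw [this, T_pow3 hc hs]; group
    exact mem_T_of_pow3 hc hH h3
  simpa using H.inv_mem hinv

theorem sylow_T [Finite G] (hc : Cfg3 T H x1 x2 x3 u1 u2 u3) :
    ∃ P : Sylow 3 G, (P : Subgroup G) = T := by
  have : Fact (Nat.Prime 3) := ⟨Nat.prime_three⟩
  obtain ⟨P, hP⟩ := (T_isPGroup hc).exists_le_sylow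
  refine ⟨P, ?_⟩
  refine (eq_of_sq_mem T ?_ P P.isPGroup' hP).symm
  intro g hg
  apply sq_mem_T hc
  apply hc.norm
  intro t ht
  exact ((Subgroup.mem_normalizer_iff.mp hg) t).mp ht

/-- every 3-subgroup is conjugate into `T`. -/
theorem conj_le_T [Finite G] (hc : Cfg3 T H x1 x2 x3 u1 u2 u3) (R : Subgroup G)
    (hR : IsPGroup 3 R) : ∃ g : G, ∀ r ∈ R, g * r * g⁻¹ ∈ T := by
  have : Fact (Nat.Prime 3) := ⟨Nat.prime_three⟩
  obtain ⟨P, hP⟩ := sylow_T hc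
  obtain ⟨Q, hQ⟩ := hR.exists_le_sylow
  obtain ⟨g, hg⟩ := MulAction.exists_smul_eq G Q P
  refine ⟨g, ?_⟩
  intro r hr
  rw [← hP, ← hg, Sylow.coe_subgroup_smul]
  have := Subgroup.smul_mem_pointwise_smul r (MulAut.conj g) (Q : Subgroup G) (hQ hr)
  simpa [MulAut.smul_def] using this

theorem isPGroup_zpowers {H : Type u} [Group H] (k : H) (hk : k ^ 3 = 1) :
    IsPGroup 3 (Subgroup.zpowers k) := by
  rintro ⟨g, hg⟩
  refine ⟨1, ?_⟩
  apply Subtype.ext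
  obtain ⟨n, rfl⟩ := Subgroup.mem_zpowers_iff.mp hg
  simp only [pow_one, Subgroup.coe_pow, Subgroup.coe_one]
  rw [← zpow_natCast, ← zpow_mul, mul_comm, zpow_mul, zpow_natCast, hk, one_zpow]

/-- every element of order dividing 3 is conjugate into `T`. -/
theorem conj_mem_T [Finite G] (hc : Cfg3 T H x1 x2 x3 u1 u2 u3) (k : G) (hk : k ^ 3 = 1) :
    ∃ g : G, g * k * g⁻¹ ∈ T := by
  obtain ⟨g, hg⟩ := conj_le_T hc (Subgroup.zpowers k) (isPGroup_zpowers k hk)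
  exact ⟨g, hg k (Subgroup.mem_zpowers k)⟩

/-- a 3-subgroup containing `x1` lies in `T`. -/
theorem le_T_of_x_mem [Finite G] (hc : Cfg3 T H x1 x2 x3 u1 u2 u3) (R : Subgroup G)
    (hR : IsPGroup 3 R) (hx : x1 ∈ R) : R ≤ T := by
  obtain ⟨g₁, hg₁⟩ := conj_le_T hc R hR
  intro p hp
  have h2 := hg₁ p hp
  have h3 := hg₁ x1 hx
  have hcomm : p * x1 = x1 * p := by
    have h4 := T_comm hc h2 h3
    calc p * x1 = g₁⁻¹ * ((g₁ * p * g₁⁻¹) * (g₁ * x1 * g₁⁻¹)) * g₁ := by group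
      _ = g₁⁻¹ * ((g₁ * x1 * g₁⁻¹) * (g₁ * p * g₁⁻¹)) * g₁ := by rw [h4]
      _ = x1 * p := by group
  have hpN : p ∈ H := hc.loc x1 (x1_mem hc) hc.ne1 p hcomm
  have hp3 : p ^ 3 = 1 := by
    have h5 := T_pow3 hc h2
    rw [conj_pow] at h5
    calc p ^ 3 = g₁⁻¹ * (g₁ * p ^ 3 * g₁⁻¹) * g₁ := by group
      _ = 1 := by rw [h5]; group
  exact mem_T_of_pow3 hc hpN hp3

/-- Sylow in a subgroup `C` containing `x1`: every element `w ∈ C` with `w^3 = 1` is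
`C`-conjugate into `T`. -/
theorem conj_in_sub [Finite G] (hc : Cfg3 T H x1 x2 x3 u1 u2 u3) (C : Subgroup G)
    (hxC : x1 ∈ C) (w : G) (hwC : w ∈ C) (hw3 : w ^ 3 = 1) : ∃ c ∈ C, c * w * c⁻¹ ∈ T := by
  have : Fact (Nat.Prime 3) := ⟨Nat.prime_three⟩
  have hzx : IsPGroup 3 (Subgroup.zpowers (⟨x1, hxC⟩ : ↥C)) :=
    isPGroup_zpowers _ (Subtype.ext (by simpa using hc.x13))
  have hzw : IsPGroup 3 (Subgroup.zpowers (⟨w, hwC⟩ : ↥C)) :=
    isPGroup_zpowers _ (Subtype.ext (by simpa using hw3))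
  obtain ⟨P, hP⟩ := hzx.exists_le_sylow
  obtain ⟨Q, hQ⟩ := hzw.exists_le_sylow
  obtain ⟨c, hc'⟩ := MulAction.exists_smul_eq ↥C Q P
  have h1 : c * ⟨w, hwC⟩ * c⁻¹ ∈ (P : Subgroup ↥C) := by
    rw [← hc', Sylow.coe_subgroup_smul]
    have := Subgroup.smul_mem_pointwise_smul _ (MulAut.conj c) (Q : Subgroup ↥C)
      (hQ (Subgroup.mem_zpowers _))
    simpa [MulAut.smul_def] using this
  have hP' : IsPGroup 3 ((P : Subgroup ↥C).map C.subtype) := P.2.map _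
  have hxP' : x1 ∈ (P : Subgroup ↥C).map C.subtype :=
    ⟨⟨x1, hxC⟩, hP (Subgroup.mem_zpowers _), rfl⟩
  have hPT := le_T_of_x_mem hc _ hP' hxP'
  exact ⟨(c : G), c.2, hPT ⟨c * ⟨w, hwC⟩ * c⁻¹, h1, rfl⟩⟩

theorem loc_mem (hc : Cfg3 T H x1 x2 x3 u1 u2 u3) {t g : G} (ht : t ∈ T) (ht1 : t ≠ 1)
    (hg : g ∈ Subgroup.centralizer ({t} : Set G)) : g ∈ H := by
  apply hc.loc t ht ht1
  exact ((Subgroup.mem_centralizer_iff.mp hg) t rfl).symm

theorem sq_ne (hc : Cfg3 T H x1 x2 x3 u1 u2 u3) : x1 ^ 2 ≠ 1 := by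
  intro h
  apply hc.ne1
  have := hc.x13
  rw [pow_succ, h, one_mul] at this
  exact this

/-- `x1 = (x1^2)^2`. -/
theorem x1_eq (hc : Cfg3 T H x1 x2 x3 u1 u2 u3) : x1 = (x1 ^ 2) ^ 2 := by
  rw [← pow_mul]
  have : x1 ^ (2 * 2) = x1 ^ 3 * x1 := by rw [← pow_succ]
  rw [this, hc.x13, one_mul]

theorem x1_pow_mod (hc : Cfg3 T H x1 x2 x3 u1 u2 u3) (i : ℕ) : x1 ^ i = x1 ^ (i % 3) := by
  conv_lhs => rw [← Nat.div_add_mod i 3]
  rw [pow_add, pow_mul, hc.x13, one_pow, one_mul]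

theorem u1_pow_mod (hc : Cfg3 T H x1 x2 x3 u1 u2 u3) (i : ℕ) : u1 ^ i = u1 ^ (i % 2) := by
  conv_lhs => rw [← Nat.div_add_mod i 2]
  rw [pow_add, pow_mul, hc.u1sq, one_pow, one_mul]

/-- `x1 * x2^j ≠ 1`. -/
theorem x1_mul_x2_pow_ne (hc : Cfg3 T H x1 x2 x3 u1 u2 u3) (j : ℕ) : x1 * x2 ^ j ≠ 1 := by
  intro h
  -- conjugate by `u1`
  have h1 : u1 * (x1 * x2 ^ j) * u1⁻¹ = x1 * (x2 ^ j)⁻¹ := by
    have e1 : u1 * x1 * u1⁻¹ = x1 := by rw [hc.a11, mul_inv_cancel_right]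
    have e2 : u1 * x2 ^ j * u1⁻¹ = (x2 ^ j)⁻¹ := by
      rw [← conj_pow, hc.a12, inv_pow]
    calc u1 * (x1 * x2 ^ j) * u1⁻¹ = (u1 * x1 * u1⁻¹) * (u1 * x2 ^ j * u1⁻¹) := by group
      _ = x1 * (x2 ^ j)⁻¹ := by rw [e1, e2]
  rw [h] at h1
  have h2 : x1 * (x2 ^ j)⁻¹ = 1 := by rw [← h1]; group
  have h3 : x1 ^ 2 = 1 := by
    have e1 : x2 ^ j = x1⁻¹ := eq_inv_of_mul_eq_one_right h
    rw [e1, inv_inv] at h2
    rw [pow_two]; exact h2
  exact sq_ne hc h3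

/-- `H`-conjugates of `x1` are `x1` and `x1⁻¹`. -/
theorem H_conj_x1 (hc : Cfg3 T H x1 x2 x3 u1 u2 u3) {g : G} (hg : g ∈ H) :
    g * x1 * g⁻¹ = x1 ∨ g * x1 * g⁻¹ = x1⁻¹ := by
  have hx := x1_mem hc
  obtain ⟨s, hs, h | h | h | h⟩ := (hc.memH g).1 hg
  · left; rw [h, T_comm hc hs hx, mul_inv_cancel_right]
  · left
    have : g * x1 * g⁻¹ = s * (u1 * x1 * u1⁻¹) * s⁻¹ := by rw [h]; group
    rw [this, hc.a11, mul_inv_cancel_right, T_comm hc hs hx, mul_inv_cancel_right]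
  · right
    have : g * x1 * g⁻¹ = s * (u2 * x1 * u2⁻¹) * s⁻¹ := by rw [h]; group
    rw [this, hc.a21, T_comm hc hs (T.inv_mem hx), mul_inv_cancel_right]
  · right
    have : g * x1 * g⁻¹ = s * (u3 * x1 * u3⁻¹) * s⁻¹ := by rw [h]; group
    rw [this, hc.a31, T_comm hc hs (T.inv_mem hx), mul_inv_cancel_right]

end Cfsg.Agent.Lib.Helper11.T3Basic
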