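import Cfsg.Agent.Lib.Helper11.T3Basic

set_option autoImplicit false

namespace Cfsg.Agent.Lib.Helper11.T3KGRP

open Cfsg
open Cfsg.Agent.Lib.Helper32.T3Stmt
open Cfsg.Agent.Lib.Helper11.T3Basic
open scoped Pointwise

universe u

/-- if `u` inverts `x` (with `x^3 = 1`) and lies in the normal subgroup `K`, then `x ∈ K`. -/
theorem mem_of_inverted {G : Type u} [Group G] (K : Subgroup G) (hK : K.Normal) {x u : G}
    (hx3 : x ^ 3 = 1) (hu : u * x * u⁻¹ = x⁻¹) (huK : u ∈ K) : x ∈ K := by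
  have h1 : x * u * x⁻¹ * u⁻¹ ∈ K := K.mul_mem (hK.conj_mem u huK x) (K.inv_mem huK)
  have h2 : u * x⁻¹ * u⁻¹ = x := by
    calc u * x⁻¹ * u⁻¹ = (u * x * u⁻¹)⁻¹ := by group
      _ = x := by rw [hu, inv_inv]
  have h3 : x * u * x⁻¹ * u⁻¹ = x ^ 2 := by
    calc x * u * x⁻¹ * u⁻¹ = x * (u * x⁻¹ * u⁻¹) := by group
      _ = x ^ 2 := by rw [h2, pow_two]
  rw [h3] at h1
  have h4 : x = (x ^ 2) ^ 2 := by
    rw [← pow_mul]
    have : x ^ (2 * 2) = x ^ 3 * x := by rw [← pow_succ]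
    rw [this, hx3, one_mul]
  rw [h4]; exact K.pow_mem h1 2

/-- if `x^i * u ∈ K` with `u` inverting `x`, then `x ∈ K`. -/
theorem mem_of_twisted {G : Type u} [Group G] (K : Subgroup G) (hK : K.Normal) {x u : G}
    (hx3 : x ^ 3 = 1) (hu : u * x * u⁻¹ = x⁻¹) (i : ℕ) (huK : x ^ i * u ∈ K) : x ∈ K := by
  apply mem_of_inverted K hK hx3 (u := x ^ i * u) _ huK
  have h2 : (x ^ i * u) * x * (x ^ i * u)⁻¹ = x ^ i * (u * x * u⁻¹) * (x ^ i)⁻¹ := by group
  rw [h2, hu]
  have h3 : Commute (x ^ i) x⁻¹ := ((Commute.refl x).pow_left i).inv_right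
  rw [h3.eq, mul_inv_cancel_right]

theorem main : Cfsg.Agent.Lib.Helper32.T3Stmt.KGRP.{u} := by
  intro G _ _ T H x1 x2 x3 u1 u2 u3 hc K hK hbK hxK
  have : Fact (Nat.Prime 3) := ⟨Nat.prime_three⟩
  have hx2K : x2 ∈ K := mem_of_inverted K hK hc.x23 hc.a12 hbK
  have hx3K : x3 ∈ K := mem_of_inverted K hK hc.x33 hc.a13 hbK
  have hx2 : x1 ^ 2 ∉ K := by
    intro h
    apply hxK
    rw [x1_eq hc]; exact K.pow_mem h 2
  have c12 : Commute x1 x2 := hc.c12
  have c13 : Commute x1 x3 := hc.c13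
  have c23 : Commute x2 x3 := hc.c23
  -- `x1^i ∈ K` forces `x1^i = 1`
  have hpow : ∀ i : ℕ, x1 ^ i ∈ K → x1 ^ i = 1 := by
    intro i hu
    have h3 : i % 3 < 3 := Nat.mod_lt _ (by norm_num)
    rw [x1_pow_mod hc i] at hu ⊢
    have hcases : i % 3 = 0 ∨ i % 3 = 1 ∨ i % 3 = 2 := by omega
    rcases hcases with h | h | h
    · rw [h, pow_zero]
    · rw [h, pow_one] at hu; exact absurd hu hxK
    · rw [h] at hu; exact absurd hu hx2
  refine ⟨?_, ?_⟩
  · intro g hgN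
    constructor
    · intro hgK
      obtain ⟨t, ht, hg⟩ := (hc.memH g).1 hgN
      obtain ⟨i, j, k, rfl⟩ := (hc.memT t).1 ht
      -- strip off `x2^j * x3^k`
      have hstrip : ∀ v : G, x1 ^ i * x2 ^ j * x3 ^ k * v ∈ K → x1 ^ i * v ∈ K := by
        intro v hv
        have h1 : x1 ^ i * v = (x2 ^ j * x3 ^ k)⁻¹ * (x1 ^ i * x2 ^ j * x3 ^ k * v) := by
          have h2 : x1 ^ i * x2 ^ j * x3 ^ k = (x2 ^ j * x3 ^ k) * x1 ^ i := by
            rw [mul_assoc]
            exact (((c12.pow_pow i j).mul_right (c13.pow_pow i k))).eq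
          rw [h2]; group
        rw [h1]
        exact K.mul_mem (K.inv_mem (K.mul_mem (K.pow_mem hx2K j) (K.pow_mem hx3K k))) hv
      rcases hg with hg | hg | hg | hg
      · have h1 := hstrip 1 (by rw [mul_one, ← hg]; exact hgK)
        rw [mul_one] at h1
        have h2 := hpow i h1
        exact ⟨j, k, 0, by rw [hg, h2, one_mul, pow_zero, mul_one]⟩
      · have h1 := hstrip u1 (by rw [← hg]; exact hgK)
        have h1' : x1 ^ i ∈ K := by
          have := K.mul_mem h1 (K.inv_mem hbK)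
          simpa using this
        have h2 := hpow i h1'
        exact ⟨j, k, 1, by rw [hg, h2, one_mul, pow_one]⟩
      · have h1 := hstrip u2 (by rw [← hg]; exact hgK)
        exact absurd (mem_of_twisted K hK hc.x13 hc.a21 i h1) hxK
      · have h1 := hstrip u3 (by rw [← hg]; exact hgK)
        exact absurd (mem_of_twisted K hK hc.x13 hc.a31 i h1) hxK
    · rintro ⟨j, k, l, rfl⟩
      exact K.mul_mem (K.mul_mem (K.pow_mem hx2K j) (K.pow_mem hx3K k)) (K.pow_mem hbK l)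
  · -- Frattini
    have hc' := hc.perm12
    have hz : IsPGroup 3 (Subgroup.zpowers (⟨x2, hx2K⟩ : ↥K)) :=
      isPGroup_zpowers _ (Subtype.ext (by simpa using hc.x23))
    obtain ⟨P, hP⟩ := hz.exists_le_sylow
    have hP' : IsPGroup 3 ((P : Subgroup ↥K).map K.subtype) := P.2.map _
    have hyP' : x2 ∈ (P : Subgroup ↥K).map K.subtype :=
      ⟨⟨x2, hx2K⟩, hP (Subgroup.mem_zpowers _), rfl⟩
    have hPT : (P : Subgroup ↥K).map K.subtype ≤ T := le_T_of_x_mem hc' _ hP' hyP'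
    have hfr := Sylow.normalizer_sup_eq_top P
    intro g
    have hg : g ∈ ((Subgroup.normalizer (((P : Subgroup ↥K).map K.subtype : Subgroup G) : Set G)
        ⊔ K : Subgroup G) : Set G) := by
      rw [hfr]; trivial
    rw [Subgroup.mul_normal] at hg
    obtain ⟨n, hn, k, hk, rfl⟩ := hg
    have hnN : n ∈ H := by
      apply ti hc n x2 (x2_mem hc) hc.ne2
      apply hPT
      exact ((Subgroup.mem_normalizer_iff.mp hn) x2).mp hyP'
    exact ⟨n * k * n⁻¹, hK.conj_mem k hk n, n, hnN, by group⟩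

end Cfsg.Agent.Lib.Helper11.T3KGRP
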