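import Cfsg.Agent.Lib.Helper11.T3Basic
import Cfsg.Agent.Lib.Helper31.CoprimeGen

set_option autoImplicit false

namespace Cfsg.Agent.Lib.Helper11.T3NCORE

open Cfsg
open Cfsg.Agent.Lib.Helper32.T3Stmt
open Cfsg.Agent.Lib.Helper11.T3Basic

universe u

theorem main : Cfsg.Agent.Lib.Helper32.T3Stmt.NCORE.{u} := by
  intro G _ _ T H x1 x2 x3 u1 u2 u3 hc K hK hKN
  have : Fact (Nat.Prime 3) := ⟨Nat.prime_three⟩
  have h3 : ¬ 3 ∣ Nat.card K := by
    intro hdvd
    obtain ⟨k, hk⟩ := exists_prime_orderOf_dvd_card' 3 hdvd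
    have hk3 : (k : G) ^ 3 = 1 := by
      have := pow_orderOf_eq_one k
      rw [hk] at this
      exact_mod_cast congrArg Subtype.val this
    obtain ⟨g, hg⟩ := conj_mem_T hc (k : G) hk3
    have h1 : g * (k : G) * g⁻¹ = 1 := hKN _ (hK.conj_mem _ k.2 g) (T_le_H hc hg)
    have h2 : (k : G) = 1 := by
      calc (k : G) = g⁻¹ * (g * (k : G) * g⁻¹) * g := by group
        _ = 1 := by rw [h1]; group
    have h4 : k = 1 := Subtype.ext h2
    rw [h4, orderOf_one] at hk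
    norm_num at hk
  have hTK : T ≤ Subgroup.normalizer (K : Set G) := by
    rw [Subgroup.normalizer_eq_top]; exact le_top
  have hgen := Cfsg.Agent.Lib.Helper31.CoprimeGen.rank_two_generation (p := 3) T K
    (T_isPGroup hc) h3 hTK x1 x2 (x1_mem hc) (x2_mem hc) hc.c12 hc.x13 hc.x23
  have hbot : ∀ t ∈ T, t ≠ 1 → K ⊓ Subgroup.centralizer ({t} : Set G) = ⊥ := by
    intro t ht ht1
    rw [eq_bot_iff]
    rintro g ⟨hgK, hgC⟩
    rw [Subgroup.mem_bot]
    exact hKN g hgK (loc_mem hc ht ht1 hgC)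
  rw [eq_bot_iff]
  refine hgen.trans ?_
  refine sup_le ?_ ?_
  · rw [hbot x2 (x2_mem hc) hc.ne2]
  · refine iSup₂_le ?_
    intro j _
    rw [hbot (x1 * x2 ^ j) (T.mul_mem (x1_mem hc) (T.pow_mem (x2_mem hc) j))
      (x1_mul_x2_pow_ne hc j)]

end Cfsg.Agent.Lib.Helper11.T3NCORE
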