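import Cfsg.Agent.Lib.Helper11.T3Basic

set_option autoImplicit false

namespace Cfsg.Agent.Lib.Helper11.T3NOFUS

open Cfsg
open Cfsg.Agent.Lib.Helper32.T3Stmt
open Cfsg.Agent.Lib.Helper11.T3Basic

universe u

theorem main : Cfsg.Agent.Lib.Helper32.T3Stmt.NOFUS.{u} := by
  intro G _ _ T H x1 x2 x3 u1 u2 u3 hc hconj
  obtain ⟨g, hg⟩ := isConj_iff.mp hconj
  -- `hg : g * u1 * g⁻¹ = u2`
  have hc' := hc.perm12
  have hxC : x2 ∈ Subgroup.centralizer ({u2} : Set G) := by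
    rw [Subgroup.mem_centralizer_iff]
    intro h hh
    rw [Set.mem_singleton_iff] at hh
    rw [hh]; exact hc.a22
  have hwC : g * x1 * g⁻¹ ∈ Subgroup.centralizer ({u2} : Set G) := by
    rw [Subgroup.mem_centralizer_iff]
    intro h hh
    rw [Set.mem_singleton_iff] at hh
    rw [hh, ← hg]
    calc g * u1 * g⁻¹ * (g * x1 * g⁻¹) = g * (u1 * x1) * g⁻¹ := by group
      _ = g * (x1 * u1) * g⁻¹ := by rw [hc.a11]
      _ = g * x1 * g⁻¹ * (g * u1 * g⁻¹) := by group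
  have hw3 : (g * x1 * g⁻¹) ^ 3 = 1 := by
    rw [conj_pow, hc.x13]; group
  obtain ⟨c, hcC, hcT⟩ := conj_in_sub hc' _ hxC _ hwC hw3
  have hh : (c * g) * x1 * (c * g)⁻¹ ∈ T := by
    have : (c * g) * x1 * (c * g)⁻¹ = c * (g * x1 * g⁻¹) * c⁻¹ := by group
    rw [this]; exact hcT
  have hN : c * g ∈ H := ti hc (c * g) x1 (x1_mem hc) hc.ne1 hh
  have hmemC : (c * g) * x1 * (c * g)⁻¹ ∈ Subgroup.centralizer ({u2} : Set G) := by
    have : (c * g) * x1 * (c * g)⁻¹ = c * (g * x1 * g⁻¹) * c⁻¹ := by group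
    rw [this]
    exact Subgroup.mul_mem _ (Subgroup.mul_mem _ hcC hwC) (Subgroup.inv_mem _ hcC)
  have hx1C : x1 ∈ Subgroup.centralizer ({u2} : Set G) := by
    rcases H_conj_x1 hc hN with h | h
    · rw [h] at hmemC; exact hmemC
    · rw [h] at hmemC
      simpa using Subgroup.inv_mem _ hmemC
  have h1 : u2 * x1 = x1 * u2 := (Subgroup.mem_centralizer_iff.mp hx1C) u2 rfl
  have h2 := hc.a21
  rw [h1, mul_inv_cancel_right] at h2
  -- `x1 = x1⁻¹`
  apply sq_ne hc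
  rw [pow_two]
  nth_rewrite 2 [h2]
  exact mul_inv_cancel x1

end Cfsg.Agent.Lib.Helper11.T3NOFUS
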