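import Cfsg.Agent.Lib.Helper11.T3Basic

set_option autoImplicit false

namespace Cfsg.Agent.Lib.Helper11.T3SYL

open Cfsg
open Cfsg.Agent.Lib.Helper32.T3Stmt
open Cfsg.Agent.Lib.Helper11.T3Basic

universe u

theorem main : Cfsg.Agent.Lib.Helper32.T3Stmt.SYL.{u} := by
  intro G _ _ T hT hsq h81
  have : Fact (Nat.Prime 3) := ⟨Nat.prime_three⟩
  have hTp : IsPGroup 3 T := IsPGroup.of_card (n := 3) (by rw [hT]; norm_num)
  obtain ⟨P, hP⟩ := hTp.exists_le_sylow
  have heq := eq_of_sq_mem T hsq P P.isPGroup' hP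
  have hcard : Nat.card P = 3 ^ (Nat.card G).factorization 3 := Sylow.card_eq_multiplicity P
  have h4 : 3 ^ 4 ∣ Nat.card G := by simpa using h81
  have h5 : 4 ≤ (Nat.card G).factorization 3 :=
    (Nat.Prime.pow_dvd_iff_le_factorization Nat.prime_three Nat.card_pos.ne').mp h4
  have h6 : Nat.card T = Nat.card (P : Subgroup G) := by rw [heq]
  rw [hT, hcard] at h6
  have h7 : 3 ^ 4 ≤ 3 ^ (Nat.card G).factorization 3 := Nat.pow_le_pow_right (by norm_num) h5
  omega

end Cfsg.Agent.Lib.Helper11.T3SYL
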